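import Mathlib
import Cfsg.Agent.H942.Enum

/-!
# Computations in a group modulo its centre with data representing the elements
-/

set_option autoImplicit false

namespace Cfsg.Agent.H942.Pool

open Cfsg.Agent.H942.Enum

/-- Elements of a group `Γ` represented by data of type `α`. -/
structure Sys (Γ : Type*) [Group Γ] (α : Type) where
  mul : α → α → α
  beq : α → α → Bool
  eqv : α → α → Bool
  R : Γ → α → Prop
  R_mul : ∀ {g h : Γ} {a b : α}, R g a → R h b → R (g * h) (mul a b)
  beq_eq : ∀ {a b : α}, beq a b = true → a = b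
  R_eqv : ∀ {g h : Γ} {a b : α}, R g a → R h b → eqv a b = true →
    (QuotientGroup.mk g : Γ ⧸ Subgroup.center Γ) = QuotientGroup.mk h
  R_inj : ∀ {g h : Γ} {a : α}, R g a → R h a → g = h

variable {Γ : Type*} [Group Γ] {α : Type} (S : Sys Γ α)

/-- the check that every member of `pool` but the first is the product of an earlier one with a member of `base` -/
def chkPool (mul : α → α → α) (beq : α → α → Bool) (dflt : α) (base pool : List α) (par : List (ℕ × ℕ)) : Bool :=
  (List.range (pool.length - 1)).all fun i =>
    let p := par.getD i (0, 0)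
    decide (p.1 ≤ i) && decide (p.2 < base.length) &&
      beq (mul (pool.getD p.1 dflt) (base.getD p.2 dflt)) (pool.getD (i + 1) dflt)

theorem exists_pool {dflt : α} {base pool : List α} {par : List (ℕ × ℕ)} (b : ℕ → Γ)
    (hb : ∀ i < base.length, S.R (b i) (base.getD i dflt)) (h1 : S.R 1 (pool.getD 0 dflt))
    (hc : chkPool S.mul S.beq dflt base pool par = true) :
    ∃ p : ℕ → Γ, p 0 = 1 ∧ ∀ i < pool.length, S.R (p i) (pool.getD i dflt) := by
  classical
  rw [chkPool, List.all_eq_true] at hc
  have key : ∀ i < pool.length, ∃ g : Γ, S.R g (pool.getD i dflt) := by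
    intro i
    induction i using Nat.strong_induction_on with
    | _ i ih =>
      intro hi
      cases i with
      | zero => exact ⟨1, h1⟩
      | succ i =>
        have h2 := hc i (by rw [List.mem_range]; omega)
        simp only [Bool.and_eq_true, decide_eq_true_iff] at h2
        obtain ⟨g, hg⟩ := ih (par.getD i (0, 0)).1 (by omega) (by omega)
        exact ⟨g * b (par.getD i (0, 0)).2, by
          rw [← S.beq_eq h2.2]
          exact S.R_mul hg (hb _ h2.1.2)⟩
  refine ⟨fun i => if h : i = 0 then 1 else if h : i < pool.length then (key i h).choose else 1, by simp, ?_⟩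
  intro i hi
  by_cases h0 : i = 0
  · subst h0
    simpa using h1
  · simp only [dif_neg h0, dif_pos hi]
    exact (key i hi).choose_spec

/-- the check of the table of a finite subgroup modulo the centre: `E` the elements, `G` the generators, `T` the rows of the
table, `par` the parents, `W` a list of witnesses for noncentrality -/
def chkTab (mul : α → α → α) (beq eqv : α → α → Bool) (dflt : α) (E G : List α) (T : List (List ℕ))
    (par : List (ℕ × ℕ)) : Bool :=
  (List.range E.length).all (fun i => (List.range G.length).all fun j =>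
    let k := (T.getD i []).getD j 0
    decide (k < E.length) && eqv (mul (E.getD i dflt) (G.getD j dflt)) (E.getD k dflt)) &&
  (List.range (E.length - 1)).all (fun i =>
    let p := par.getD i (0, 0)
    decide (p.1 ≤ i) && decide (p.2 < G.length) && Nat.beq ((T.getD p.1 []).getD p.2 0) (i + 1) &&
      beq (mul (E.getD p.1 dflt) (G.getD p.2 dflt)) (E.getD (i + 1) dflt)) &&
  (List.range G.length).all (fun j => decide ((List.range E.length).map fun i => (T.getD i []).getD j 0).Nodup)

/-- noncentrality: every element but the first fails to commute with a witness -/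
def chkNe (mul : α → α → α) (beq : α → α → Bool) (dflt : α) (E W : List α) : Bool :=
  (List.range (E.length - 1)).all fun i =>
    W.any fun w => !(beq (mul (E.getD (i + 1) dflt) w) (mul w (E.getD (i + 1) dflt)))

theorem exists_table {dflt : α} {E G W : List α} {T : List (List ℕ)} {par : List (ℕ × ℕ)}
    (beq_refl : ∀ a, S.beq a a = true)
    (Runi : ∀ {g : Γ} {a b : α}, S.R g a → S.R g b → (∃ a' b', S.mul a' b' = a) → (∃ a' b', S.mul a' b' = b) → a = b)
    (gen : ℕ → Γ) (hgen : ∀ i < G.length, S.R (gen i) (G.getD i dflt))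
    (wit : ℕ → Γ) (hwit : ∀ i < W.length, S.R (wit i) (W.getD i dflt))
    (h1 : S.R 1 (E.getD 0 dflt)) (hpos : 0 < E.length)
    (hc : chkTab S.mul S.beq S.eqv dflt E G T par = true)
    (hne : chkNe S.mul S.beq dflt E W = true) :
    ∃ e : ℕ → Γ, (∀ i < E.length, S.R (e i) (E.getD i dflt)) ∧
      Table E.length G.length (fun i => (QuotientGroup.mk (e i) : Γ ⧸ Subgroup.center Γ))
        (fun j => QuotientGroup.mk (gen j)) (fun i j => (T.getD i []).getD j 0) := by
  classical
  rw [chkTab, Bool.and_eq_true, Bool.and_eq_true, List.all_eq_true, List.all_eq_true, List.all_eq_true] at hc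
  obtain ⟨⟨hc1, hc2⟩, hc3⟩ := hc
  have key : ∀ i < E.length, ∃ g : Γ, S.R g (E.getD i dflt) := by
    intro i
    induction i using Nat.strong_induction_on with
    | _ i ih =>
      intro hi
      cases i with
      | zero => exact ⟨1, h1⟩
      | succ i =>
        have h2 := hc2 i (by rw [List.mem_range]; omega)
        simp only [Bool.and_eq_true, decide_eq_true_iff] at h2
        obtain ⟨g, hg⟩ := ih (par.getD i (0, 0)).1 (by omega) (by omega)
        exact ⟨g * gen (par.getD i (0, 0)).2, by
          rw [← S.beq_eq h2.2]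
          exact S.R_mul hg (hgen _ h2.1.1.2)⟩
  let e : ℕ → Γ := fun i => if h : i = 0 then 1 else if h : i < E.length then (key i h).choose else 1
  have he : ∀ i < E.length, S.R (e i) (E.getD i dflt) := by
    intro i hi
    by_cases h0 : i = 0
    · subst h0
      show S.R (if h : 0 = 0 then 1 else _) _
      simpa using h1
    · show S.R (if h : i = 0 then 1 else if h : i < E.length then (key i h).choose else 1) _
      simp only [dif_neg h0, dif_pos hi]
      exact (key i hi).choose_spec
  have he0 : e 0 = 1 := by simp [e]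
  refine ⟨e, he, ?_⟩
  have hlt : ∀ i < E.length, ∀ j < G.length, (T.getD i []).getD j 0 < E.length ∧
      S.eqv (S.mul (E.getD i dflt) (G.getD j dflt)) (E.getD ((T.getD i []).getD j 0) dflt) = true := by
    intro i hi j hj
    have h2 := hc1 i (List.mem_range.2 hi)
    rw [List.all_eq_true] at h2
    have h3 := h2 j (List.mem_range.2 hj)
    simp only [Bool.and_eq_true, decide_eq_true_iff] at h3
    exact h3
  constructor
  · exact hpos
  · show (QuotientGroup.mk (e 0) : Γ ⧸ Subgroup.center Γ) = 1
    rw [he0]
    rfl
  · exact fun i hi j hj => (hlt i hi j hj).1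
  · intro i hi j hj
    have h2 := hlt i hi j hj
    have h3 := S.R_eqv (S.R_mul (he i hi) (hgen j hj)) (he _ h2.1) h2.2
    rw [← h3]
    rfl
  · intro j hj i hi i' hi' hii
    have h2 := hc3 j (List.mem_range.2 hj)
    rw [decide_eq_true_iff] at h2
    have h3 := List.nodup_iff_injective_get.1 h2
    have hl : ((List.range E.length).map fun i => (T.getD i []).getD j 0).length = E.length := by simp
    have h4 := @h3 ⟨i, by rw [hl]; exact hi⟩ ⟨i', by rw [hl]; exact hi'⟩ (by simpa using hii)
    simpa using h4
  · intro i hi h0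
    cases i with
    | zero => exact absurd rfl h0
    | succ i =>
      have h2 := hc2 i (by rw [List.mem_range]; omega)
      simp only [Bool.and_eq_true, decide_eq_true_iff] at h2
      exact ⟨(par.getD i (0, 0)).1, by omega, (par.getD i (0, 0)).2, h2.1.1.2, Nat.eq_of_beq_eq_true h2.1.2⟩
  · intro i hi h0 hcon
    rw [chkNe, List.all_eq_true] at hne
    cases i with
    | zero => exact absurd rfl h0
    | succ i =>
      have h2 := hne i (by rw [List.mem_range]; omega)
      rw [List.any_eq_true] at h2
      obtain ⟨w, hw, hw'⟩ := h2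
      obtain ⟨k, hk, rfl⟩ := List.mem_iff_getElem.1 hw
      have h3 := hwit k hk
      rw [List.getD_eq_getElem _ _ hk] at h3
      have h4 : e (i + 1) ∈ Subgroup.center Γ := (QuotientGroup.eq_one_iff _).1 hcon
      have h5 : e (i + 1) * wit k = wit k * e (i + 1) := (Subgroup.mem_center_iff.1 h4 (wit k)).symm
      have h6 := S.R_mul (he _ hi) h3
      have h7 := S.R_mul h3 (he _ hi)
      rw [h5] at h6
      have h8 := Runi h6 h7 ⟨_, _, rfl⟩ ⟨_, _, rfl⟩
      rw [h8, beq_refl] at hw'
      simp at hw'

/-- conjugacy to representatives: `W` the conjugating elements (by index), `C` the representatives -/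
def chkConj (mul : α → α → α) (eqv : α → α → Bool) (dflt : α) (E W C : List α) (wc : List (ℕ × ℕ)) : Bool :=
  (List.range E.length).all fun i =>
    let p := wc.getD i (0, 0)
    decide (p.1 < W.length) && decide (p.2 < C.length) &&
      eqv (mul (W.getD p.1 dflt) (E.getD i dflt)) (mul (C.getD p.2 dflt) (W.getD p.1 dflt))

theorem conj_of {dflt : α} {E W C : List α} {wc : List (ℕ × ℕ)} {e w c : ℕ → Γ}
    (he : ∀ i < E.length, S.R (e i) (E.getD i dflt)) (hw : ∀ i < W.length, S.R (w i) (W.getD i dflt))
    (hcc : ∀ i < C.length, S.R (c i) (C.getD i dflt))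
    (h : chkConj S.mul S.eqv dflt E W C wc = true) :
    ∀ i < E.length, (QuotientGroup.mk (e i) : Γ ⧸ Subgroup.center Γ) =
      (QuotientGroup.mk (w (wc.getD i (0, 0)).1))⁻¹ * QuotientGroup.mk (c (wc.getD i (0, 0)).2) *
        QuotientGroup.mk (w (wc.getD i (0, 0)).1) := by
  rw [chkConj, List.all_eq_true] at h
  intro i hi
  have h1 := h i (List.mem_range.2 hi)
  simp only [Bool.and_eq_true, decide_eq_true_iff] at h1
  have h2 := S.R_eqv (S.R_mul (hw _ h1.1.1) (he i hi)) (S.R_mul (hcc _ h1.1.2) (hw _ h1.1.1)) h1.2
  have h3 : (QuotientGroup.mk (w (wc.getD i (0, 0)).1) : Γ ⧸ Subgroup.center Γ) * QuotientGroup.mk (e i) =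
      QuotientGroup.mk (c (wc.getD i (0, 0)).2) * QuotientGroup.mk (w (wc.getD i (0, 0)).1) := h2
  rw [mul_assoc, ← h3, inv_mul_cancel_left]

end Cfsg.Agent.H942.Pool
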