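import Mathlib
import Cfsg.Agent.H942.Pool
import Cfsg.Agent.H942.Forest

/-!
# Tables and forests given by functions (packed tables)
-/

set_option autoImplicit false

namespace Cfsg.Agent.H942.Fun

open Cfsg.Agent.H942.Enum Cfsg.Agent.H942.Pool Cfsg.Agent.H942.Forest

/-- entry `i` of the table packed in `t`, with `k` bits for every entry -/
def look (k t i : ℕ) : ℕ := (t >>> (k * i)) % 2 ^ k

/-- `p i` for all `i < n` -/
def allB (p : ℕ → Bool) (n : ℕ) : Bool := Nat.rec true (fun i ih => p i && ih) n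

theorem allB_spec {p : ℕ → Bool} : ∀ {n : ℕ}, allB p n = true → ∀ i < n, p i = true
  | 0, _, i, hi => absurd hi (Nat.not_lt_zero i)
  | n + 1, h, i, hi => by
    have h1 : (p n && allB p n) = true := h
    rw [Bool.and_eq_true] at h1
    rcases Nat.lt_succ_iff_lt_or_eq.1 hi with h2 | h2
    · exact allB_spec h1.2 i h2
    · rw [h2]
      exact h1.1

variable {Γ : Type*} [Group Γ] {α : Type} (S : Sys Γ α)

/-- the check of the table of a finite subgroup modulo the centre -/
def chkTab (mul : α → α → α) (beq eqv : α → α → Bool) (nE nG : ℕ) (E G : ℕ → α) (T Ti : ℕ → ℕ → ℕ)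
    (par : ℕ → ℕ × ℕ) : Bool :=
  allB (fun i => allB (fun j => Nat.blt (T i j) nE && eqv (mul (E i) (G j)) (E (T i j)) &&
    Nat.beq (Ti (T i j) j) i) nG) nE &&
  allB (fun i => Nat.ble (par i).1 i && Nat.blt (par i).2 nG && Nat.beq (T (par i).1 (par i).2) (i + 1) &&
      beq (mul (E (par i).1) (G (par i).2)) (E (i + 1))) (nE - 1)

/-- noncentrality: every element but the first fails to commute with its witness -/
def chkNe (mul : α → α → α) (beq : α → α → Bool) (nE nW : ℕ) (E W : ℕ → α) (w : ℕ → ℕ) : Bool :=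
  allB (fun i => Nat.blt (w i) nW && !(beq (mul (E (i + 1)) (W (w i))) (mul (W (w i)) (E (i + 1))))) (nE - 1)

theorem exists_table {nE nG nW : ℕ} {E G W : ℕ → α} {T Ti : ℕ → ℕ → ℕ} {par : ℕ → ℕ × ℕ} {wi : ℕ → ℕ}
    (beq_refl : ∀ a, S.beq a a = true)
    (Runi : ∀ {g : Γ} {a b : α}, S.R g a → S.R g b → (∃ a' b', S.mul a' b' = a) → (∃ a' b', S.mul a' b' = b) → a = b)
    {gen : ℕ → Γ} (hgen : ∀ i < nG, S.R (gen i) (G i))
    {wit : ℕ → Γ} (hwit : ∀ i < nW, S.R (wit i) (W i))
    (h1 : S.R 1 (E 0)) (hpos : 0 < nE)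
    (hc : chkTab S.mul S.beq S.eqv nE nG E G T Ti par = true)
    (hne : chkNe S.mul S.beq nE nW E W wi = true) :
    ∃ e : ℕ → Γ, (∀ i < nE, S.R (e i) (E i)) ∧
      Table nE nG (fun i => (QuotientGroup.mk (e i) : Γ ⧸ Subgroup.center Γ))
        (fun j => QuotientGroup.mk (gen j)) T := by
  classical
  rw [chkTab, Bool.and_eq_true] at hc
  obtain ⟨hc1, hc2⟩ := hc
  have key : ∀ i < nE, ∃ g : Γ, S.R g (E i) := by
    intro i
    induction i using Nat.strong_induction_on with
    | _ i ih =>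
      intro hi
      cases i with
      | zero => exact ⟨1, h1⟩
      | succ i =>
        have h2 := allB_spec hc2 i (by omega)
        simp only [Bool.and_eq_true, Nat.blt_eq, Nat.ble_eq] at h2
        obtain ⟨g, hg⟩ := ih (par i).1 (by omega) (by omega)
        exact ⟨g * gen (par i).2, by
          rw [← S.beq_eq h2.2]
          exact S.R_mul hg (hgen _ h2.1.1.2)⟩
  let e : ℕ → Γ := fun i => if h : i = 0 then 1 else if h : i < nE then (key i h).choose else 1
  have he : ∀ i < nE, S.R (e i) (E i) := by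
    intro i hi
    by_cases h0 : i = 0
    · subst h0
      show S.R (if h : 0 = 0 then 1 else _) _
      simpa using h1
    · show S.R (if h : i = 0 then 1 else if h : i < nE then (key i h).choose else 1) _
      simp only [dif_neg h0, dif_pos hi]
      exact (key i hi).choose_spec
  have he0 : e 0 = 1 := by simp [e]
  refine ⟨e, he, ?_⟩
  have hlt : ∀ i < nE, ∀ j < nG, T i j < nE ∧ S.eqv (S.mul (E i) (G j)) (E (T i j)) = true ∧ Ti (T i j) j = i := by
    intro i hi j hj
    have h2 := allB_spec (allB_spec hc1 i hi) j hj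
    simp only [Bool.and_eq_true, Nat.blt_eq] at h2
    exact ⟨h2.1.1, h2.1.2, Nat.eq_of_beq_eq_true h2.2⟩
  constructor
  · exact hpos
  · show (QuotientGroup.mk (e 0) : Γ ⧸ Subgroup.center Γ) = 1
    rw [he0]
    rfl
  · exact fun i hi j hj => (hlt i hi j hj).1
  · intro i hi j hj
    have h2 := hlt i hi j hj
    have h3 := S.R_eqv (S.R_mul (he i hi) (hgen j hj)) (he _ h2.1) h2.2.1
    rw [← h3]
    rfl
  · intro j hj i hi i' hi' hii
    have h2 := (hlt i hi j hj).2.2
    have h3 := (hlt i' hi' j hj).2.2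
    rw [hii] at h2
    exact h2.symm.trans h3
  · intro i hi h0
    cases i with
    | zero => exact absurd rfl h0
    | succ i =>
      have h2 := allB_spec hc2 i (by omega)
      simp only [Bool.and_eq_true, Nat.blt_eq, Nat.ble_eq] at h2
      exact ⟨(par i).1, by omega, (par i).2, h2.1.1.2, Nat.eq_of_beq_eq_true h2.1.2⟩
  · intro i hi h0 hcon
    cases i with
    | zero => exact absurd rfl h0
    | succ i =>
      have h2 := allB_spec hne i (by omega)
      rw [Bool.and_eq_true, Nat.blt_eq] at h2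
      obtain ⟨hk, hw'⟩ := h2
      have h3 := hwit _ hk
      have h4 : e (i + 1) ∈ Subgroup.center Γ := (QuotientGroup.eq_one_iff _).1 hcon
      have h5 : e (i + 1) * wit (wi i) = wit (wi i) * e (i + 1) := (Subgroup.mem_center_iff.1 h4 (wit (wi i))).symm
      have h6 := S.R_mul (he _ hi) h3
      have h7 := S.R_mul h3 (he _ hi)
      rw [h5] at h6
      have h8 := Runi h6 h7 ⟨_, _, rfl⟩ ⟨_, _, rfl⟩
      rw [h8, beq_refl] at hw'
      simp at hw'

/-- the sub-table given by the first `n` elements and the first `m` generators -/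
def chkSub (T : ℕ → ℕ → ℕ) (par : ℕ → ℕ × ℕ) (n m : ℕ) : Bool :=
  allB (fun i => allB (fun j => Nat.blt (T i j) n) m) n &&
  allB (fun i => Nat.ble (par i).1 i && Nat.blt (par i).2 m && Nat.beq (T (par i).1 (par i).2) (i + 1)) (n - 1)

theorem sub_table {Q : Type*} [Group Q] {n m n' m' : ℕ} {e s : ℕ → Q} {T : ℕ → ℕ → ℕ} {par : ℕ → ℕ × ℕ}
    (h : Table n m e s T) (hn' : 0 < n') (hn : n' ≤ n) (hm : m' ≤ m) (hc : chkSub T par n' m' = true) :
    Table n' m' e s T := by
  rw [chkSub, Bool.and_eq_true] at hc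
  refine h.restrict hn' hn hm (fun i hi j hj => ?_) fun i hi h0 => ?_
  · have := allB_spec (allB_spec hc.1 i hi) j hj
    rwa [Nat.blt_eq] at this
  · cases i with
    | zero => exact absurd rfl h0
    | succ i =>
      have h2 := allB_spec hc.2 i (by omega)
      simp only [Bool.and_eq_true, Nat.blt_eq, Nat.ble_eq] at h2
      exact ⟨(par i).1, by omega, (par i).2, h2.1.2, Nat.eq_of_beq_eq_true h2.2⟩

/-- every entry from the `r`-th on is a conjugate of an earlier one by a member of `B` -/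
def chkForest (mul : α → α → α) (beq : α → α → Bool) (nB r N : ℕ) (B Fo : ℕ → α) (par : ℕ → ℕ × ℕ)
    (root : ℕ → ℕ) : Bool :=
  allB (fun i => Nat.beq (root i) i) r &&
  allB (fun i =>
    Nat.blt (par i).1 nB && Nat.blt (par i).2 (r + i) &&
      beq (mul (Fo (par i).2) (B (par i).1)) (mul (B (par i).1) (Fo (r + i))) &&
      Nat.beq (root (par i).2) (root (r + i))) (N - r)

theorem exists_forest {nB r N : ℕ} {B Fo : ℕ → α} {par : ℕ → ℕ × ℕ} {root : ℕ → ℕ}
    (hcj : ∀ {g b : Γ} {x y z : α}, S.R g x → S.R b y → S.beq (S.mul x y) (S.mul y z) = true → S.R (b⁻¹ * g * b) z)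
    {b c : ℕ → Γ} (hb : ∀ i < nB, S.R (b i) (B i))
    (hc : ∀ i < r, S.R (c i) (Fo i))
    (h : chkForest S.mul S.beq nB r N B Fo par root = true) :
    ∀ i < N, ∃ g h : Γ, S.R g (Fo i) ∧ root i < r ∧ g = h⁻¹ * c (root i) * h := by
  rw [chkForest, Bool.and_eq_true] at h
  obtain ⟨h1, h2⟩ := h
  intro i
  induction i using Nat.strong_induction_on with
  | _ i ih =>
    intro hi
    by_cases hir : i < r
    · have h3 := Nat.eq_of_beq_eq_true (allB_spec h1 i hir)
      exact ⟨c i, 1, hc i hir, by rw [h3]; exact hir, by rw [h3]; simp⟩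
    · obtain ⟨j, rfl⟩ : ∃ j, i = r + j := ⟨i - r, by omega⟩
      have h3 := allB_spec h2 j (by omega)
      simp only [Bool.and_eq_true, Nat.blt_eq] at h3
      obtain ⟨⟨⟨h4, h5⟩, h6⟩, h7⟩ := h3
      obtain ⟨g, x, hg, hlt, hgx⟩ := ih (par j).2 h5 (by omega)
      have h8 := hcj hg (hb _ h4) h6
      refine ⟨_, x * b (par j).1, h8, ?_, ?_⟩
      · rw [← Nat.eq_of_beq_eq_true h7]
        exact hlt
      · rw [← Nat.eq_of_beq_eq_true h7, hgx]
        group

/-- the value of a class function at an element found in the forest -/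
theorem val {N r : ℕ} {Fo : ℕ → α} {root : ℕ → ℕ} {c : ℕ → Γ}
    (hF : ∀ i < N, ∃ g h : Γ, S.R g (Fo i) ∧ root i < r ∧ g = h⁻¹ * c (root i) * h)
    {A : Type*} {φ : Γ ⧸ Subgroup.center Γ → A} (hφ : ∀ g h : Γ ⧸ Subgroup.center Γ, φ (h⁻¹ * g * h) = φ g)
    {g : Γ} {a : α} (hg : S.R g a) {i : ℕ} (hi : i < N) (h : S.eqv a (Fo i) = true) :
    root i < r ∧ φ (QuotientGroup.mk g) = φ (QuotientGroup.mk (c (root i))) := by
  obtain ⟨g', x, hg', hlt, hgx⟩ := hF _ hi
  refine ⟨hlt, ?_⟩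
  rw [S.R_eqv hg hg' h, hgx]
  exact hφ (QuotientGroup.mk (c (root i))) (QuotientGroup.mk x)

/-- sums of values of a class function -/
theorem sum_val {N r : ℕ} {Fo : ℕ → α} {root : ℕ → ℕ} {c : ℕ → Γ}
    (hF : ∀ i < N, ∃ g h : Γ, S.R g (Fo i) ∧ root i < r ∧ g = h⁻¹ * c (root i) * h)
    {A : Type*} [AddCommMonoid A] {φ : Γ ⧸ Subgroup.center Γ → A}
    (hφ : ∀ g h : Γ ⧸ Subgroup.center Γ, φ (h⁻¹ * g * h) = φ g)
    {n : ℕ} {g : ℕ → Γ} {a : ℕ → α} {f : ℕ → ℕ} (hg : ∀ i < n, S.R (g i) (a i))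
    (hi : ∀ i < n, f i < N ∧ S.eqv (a i) (Fo (f i)) = true) :
    ∑ i ∈ Finset.range n, φ (QuotientGroup.mk (g i)) =
      ∑ k ∈ Finset.range r, cntK n (fun i => root (f i)) k • φ (QuotientGroup.mk (c k)) := by
  rw [← sum_of (f := fun i => root (f i)) (fun i h => (val S hF hφ (hg i h) (hi i h).1 (hi i h).2).1)
    (fun k => φ (QuotientGroup.mk (c k)))]
  exact Finset.sum_congr rfl fun i h => (val S hF hφ (hg i (Finset.mem_range.1 h)) (hi i (Finset.mem_range.1 h)).1
    (hi i (Finset.mem_range.1 h)).2).2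

/-- the check that the elements `E i` are in the forest -/
def chkIdx (eqv : α → α → Bool) (nE N : ℕ) (E Fo : ℕ → α) (idx : ℕ → ℕ) : Bool :=
  allB (fun i => Nat.blt (idx i) N && eqv (E i) (Fo (idx i))) nE

theorem chkIdx_spec {eqv : α → α → Bool} {nE N : ℕ} {E Fo : ℕ → α} {idx : ℕ → ℕ} (h : chkIdx eqv nE N E Fo idx = true) :
    ∀ i < nE, idx i < N ∧ eqv (E i) (Fo (idx i)) = true := by
  intro i hi
  have := allB_spec h i hi
  rwa [Bool.and_eq_true, Nat.blt_eq] at this

end Cfsg.Agent.H942.Fun
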