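import Mathlib
import Cfsg.Prelude.Def_Classical
import Cfsg.Agent.SporadicStructure.FieldNine
import Cfsg.Agent.SporadicStructure.U43Herm
import Cfsg.Agent.H942.Pool

/-!
# 4 × 4 matrices over the field with nine elements, computably
-/

set_option autoImplicit false

namespace Cfsg.Agent.H942.G4

open Cfsg.Agent.SporadicStructure.FieldNine Cfsg.Agent.H942.Pool
open scoped Matrix

/-- the entries `aₖ + bₖ i`, `k = 4 row + column` -/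
structure Mat9 where
  a0 : ℕ
  a1 : ℕ
  a2 : ℕ
  a3 : ℕ
  a4 : ℕ
  a5 : ℕ
  a6 : ℕ
  a7 : ℕ
  a8 : ℕ
  a9 : ℕ
  a10 : ℕ
  a11 : ℕ
  a12 : ℕ
  a13 : ℕ
  a14 : ℕ
  a15 : ℕ
  b0 : ℕ
  b1 : ℕ
  b2 : ℕ
  b3 : ℕ
  b4 : ℕ
  b5 : ℕ
  b6 : ℕ
  b7 : ℕ
  b8 : ℕ
  b9 : ℕ
  b10 : ℕ
  b11 : ℕ
  b12 : ℕ
  b13 : ℕ
  b14 : ℕ
  b15 : ℕ

/-- decode a number written in base 3 (digits `a₀ b₀ a₁ b₁ …`) -/
def dec (n : ℕ) : Mat9 :=
  ⟨n / 1 % 3, n / 9 % 3, n / 81 % 3, n / 729 % 3, n / 6561 % 3, n / 59049 % 3, n / 531441 % 3, n / 4782969 % 3, n / 43046721 % 3, n / 387420489 % 3, n / 3486784401 % 3, n / 31381059609 % 3, n / 282429536481 % 3, n / 2541865828329 % 3, n / 22876792454961 % 3, n / 205891132094649 % 3,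
   n / 3 % 3, n / 27 % 3, n / 243 % 3, n / 2187 % 3, n / 19683 % 3, n / 177147 % 3, n / 1594323 % 3, n / 14348907 % 3, n / 129140163 % 3, n / 1162261467 % 3, n / 10460353203 % 3, n / 94143178827 % 3, n / 847288609443 % 3, n / 7625597484987 % 3, n / 68630377364883 % 3, n / 617673396283947 % 3⟩

/-- product -/
def mul : Mat9 → Mat9 → Mat9
  | ⟨a0, a1, a2, a3, a4, a5, a6, a7, a8, a9, a10, a11, a12, a13, a14, a15, b0, b1, b2, b3, b4, b5, b6, b7, b8, b9, b10, b11, b12, b13, b14, b15⟩,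
    ⟨c0, c1, c2, c3, c4, c5, c6, c7, c8, c9, c10, c11, c12, c13, c14, c15, d0, d1, d2, d3, d4, d5, d6, d7, d8, d9, d10, d11, d12, d13, d14, d15⟩ =>
    ⟨(a0 * c0 + a1 * c4 + a2 * c8 + a3 * c12 + 2 * (b0 * d0 + b1 * d4 + b2 * d8 + b3 * d12)) % 3,
     (a0 * c1 + a1 * c5 + a2 * c9 + a3 * c13 + 2 * (b0 * d1 + b1 * d5 + b2 * d9 + b3 * d13)) % 3,
     (a0 * c2 + a1 * c6 + a2 * c10 + a3 * c14 + 2 * (b0 * d2 + b1 * d6 + b2 * d10 + b3 * d14)) % 3,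
     (a0 * c3 + a1 * c7 + a2 * c11 + a3 * c15 + 2 * (b0 * d3 + b1 * d7 + b2 * d11 + b3 * d15)) % 3,
     (a4 * c0 + a5 * c4 + a6 * c8 + a7 * c12 + 2 * (b4 * d0 + b5 * d4 + b6 * d8 + b7 * d12)) % 3,
     (a4 * c1 + a5 * c5 + a6 * c9 + a7 * c13 + 2 * (b4 * d1 + b5 * d5 + b6 * d9 + b7 * d13)) % 3,
     (a4 * c2 + a5 * c6 + a6 * c10 + a7 * c14 + 2 * (b4 * d2 + b5 * d6 + b6 * d10 + b7 * d14)) % 3,
     (a4 * c3 + a5 * c7 + a6 * c11 + a7 * c15 + 2 * (b4 * d3 + b5 * d7 + b6 * d11 + b7 * d15)) % 3,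
     (a8 * c0 + a9 * c4 + a10 * c8 + a11 * c12 + 2 * (b8 * d0 + b9 * d4 + b10 * d8 + b11 * d12)) % 3,
     (a8 * c1 + a9 * c5 + a10 * c9 + a11 * c13 + 2 * (b8 * d1 + b9 * d5 + b10 * d9 + b11 * d13)) % 3,
     (a8 * c2 + a9 * c6 + a10 * c10 + a11 * c14 + 2 * (b8 * d2 + b9 * d6 + b10 * d10 + b11 * d14)) % 3,
     (a8 * c3 + a9 * c7 + a10 * c11 + a11 * c15 + 2 * (b8 * d3 + b9 * d7 + b10 * d11 + b11 * d15)) % 3,
     (a12 * c0 + a13 * c4 + a14 * c8 + a15 * c12 + 2 * (b12 * d0 + b13 * d4 + b14 * d8 + b15 * d12)) % 3,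
     (a12 * c1 + a13 * c5 + a14 * c9 + a15 * c13 + 2 * (b12 * d1 + b13 * d5 + b14 * d9 + b15 * d13)) % 3,
     (a12 * c2 + a13 * c6 + a14 * c10 + a15 * c14 + 2 * (b12 * d2 + b13 * d6 + b14 * d10 + b15 * d14)) % 3,
     (a12 * c3 + a13 * c7 + a14 * c11 + a15 * c15 + 2 * (b12 * d3 + b13 * d7 + b14 * d11 + b15 * d15)) % 3,
     (a0 * d0 + a1 * d4 + a2 * d8 + a3 * d12 + b0 * c0 + b1 * c4 + b2 * c8 + b3 * c12) % 3,
     (a0 * d1 + a1 * d5 + a2 * d9 + a3 * d13 + b0 * c1 + b1 * c5 + b2 * c9 + b3 * c13) % 3,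
     (a0 * d2 + a1 * d6 + a2 * d10 + a3 * d14 + b0 * c2 + b1 * c6 + b2 * c10 + b3 * c14) % 3,
     (a0 * d3 + a1 * d7 + a2 * d11 + a3 * d15 + b0 * c3 + b1 * c7 + b2 * c11 + b3 * c15) % 3,
     (a4 * d0 + a5 * d4 + a6 * d8 + a7 * d12 + b4 * c0 + b5 * c4 + b6 * c8 + b7 * c12) % 3,
     (a4 * d1 + a5 * d5 + a6 * d9 + a7 * d13 + b4 * c1 + b5 * c5 + b6 * c9 + b7 * c13) % 3,
     (a4 * d2 + a5 * d6 + a6 * d10 + a7 * d14 + b4 * c2 + b5 * c6 + b6 * c10 + b7 * c14) % 3,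
     (a4 * d3 + a5 * d7 + a6 * d11 + a7 * d15 + b4 * c3 + b5 * c7 + b6 * c11 + b7 * c15) % 3,
     (a8 * d0 + a9 * d4 + a10 * d8 + a11 * d12 + b8 * c0 + b9 * c4 + b10 * c8 + b11 * c12) % 3,
     (a8 * d1 + a9 * d5 + a10 * d9 + a11 * d13 + b8 * c1 + b9 * c5 + b10 * c9 + b11 * c13) % 3,
     (a8 * d2 + a9 * d6 + a10 * d10 + a11 * d14 + b8 * c2 + b9 * c6 + b10 * c10 + b11 * c14) % 3,
     (a8 * d3 + a9 * d7 + a10 * d11 + a11 * d15 + b8 * c3 + b9 * c7 + b10 * c11 + b11 * c15) % 3,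
     (a12 * d0 + a13 * d4 + a14 * d8 + a15 * d12 + b12 * c0 + b13 * c4 + b14 * c8 + b15 * c12) % 3,
     (a12 * d1 + a13 * d5 + a14 * d9 + a15 * d13 + b12 * c1 + b13 * c5 + b14 * c9 + b15 * c13) % 3,
     (a12 * d2 + a13 * d6 + a14 * d10 + a15 * d14 + b12 * c2 + b13 * c6 + b14 * c10 + b15 * c14) % 3,
     (a12 * d3 + a13 * d7 + a14 * d11 + a15 * d15 + b12 * c3 + b13 * c7 + b14 * c11 + b15 * c15) % 3⟩

/-- equality -/
def beq : Mat9 → Mat9 → Bool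
  | ⟨a0, a1, a2, a3, a4, a5, a6, a7, a8, a9, a10, a11, a12, a13, a14, a15, b0, b1, b2, b3, b4, b5, b6, b7, b8, b9, b10, b11, b12, b13, b14, b15⟩,
    ⟨c0, c1, c2, c3, c4, c5, c6, c7, c8, c9, c10, c11, c12, c13, c14, c15, d0, d1, d2, d3, d4, d5, d6, d7, d8, d9, d10, d11, d12, d13, d14, d15⟩ =>
    Nat.beq a0 c0 && Nat.beq a1 c1 && Nat.beq a2 c2 && Nat.beq a3 c3 && Nat.beq a4 c4 && Nat.beq a5 c5 && Nat.beq a6 c6 && Nat.beq a7 c7 && Nat.beq a8 c8 && Nat.beq a9 c9 && Nat.beq a10 c10 && Nat.beq a11 c11 && Nat.beq a12 c12 && Nat.beq a13 c13 && Nat.beq a14 c14 && Nat.beq a15 c15 && Nat.beq b0 d0 && Nat.beq b1 d1 && Nat.beq b2 d2 && Nat.beq b3 d3 && Nat.beq b4 d4 && Nat.beq b5 d5 && Nat.beq b6 d6 && Nat.beq b7 d7 && Nat.beq b8 d8 && Nat.beq b9 d9 && Nat.beq b10 d10 && Nat.beq b11 d11 && Nat.beq b12 d12 && Nat.beq b13 d13 && Nat.beq b14 d14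 && Nat.beq b15 d15

/-- minus -/
def neg : Mat9 → Mat9
  | ⟨a0, a1, a2, a3, a4, a5, a6, a7, a8, a9, a10, a11, a12, a13, a14, a15, b0, b1, b2, b3, b4, b5, b6, b7, b8, b9, b10, b11, b12, b13, b14, b15⟩ =>
    ⟨2 * a0 % 3, 2 * a1 % 3, 2 * a2 % 3, 2 * a3 % 3, 2 * a4 % 3, 2 * a5 % 3, 2 * a6 % 3, 2 * a7 % 3, 2 * a8 % 3, 2 * a9 % 3, 2 * a10 % 3, 2 * a11 % 3, 2 * a12 % 3, 2 * a13 % 3, 2 * a14 % 3, 2 * a15 % 3,
     2 * b0 % 3, 2 * b1 % 3, 2 * b2 % 3, 2 * b3 % 3, 2 * b4 % 3, 2 * b5 % 3, 2 * b6 % 3, 2 * b7 % 3, 2 * b8 % 3, 2 * b9 % 3, 2 * b10 % 3, 2 * b11 % 3, 2 * b12 % 3, 2 * b13 % 3, 2 * b14 % 3, 2 * b15 % 3⟩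

/-- times `i` -/
def muli : Mat9 → Mat9
  | ⟨a0, a1, a2, a3, a4, a5, a6, a7, a8, a9, a10, a11, a12, a13, a14, a15, b0, b1, b2, b3, b4, b5, b6, b7, b8, b9, b10, b11, b12, b13, b14, b15⟩ =>
    ⟨2 * b0 % 3, 2 * b1 % 3, 2 * b2 % 3, 2 * b3 % 3, 2 * b4 % 3, 2 * b5 % 3, 2 * b6 % 3, 2 * b7 % 3, 2 * b8 % 3, 2 * b9 % 3, 2 * b10 % 3, 2 * b11 % 3, 2 * b12 % 3, 2 * b13 % 3, 2 * b14 % 3, 2 * b15 % 3,
     a0, a1, a2, a3, a4, a5, a6, a7, a8, a9, a10, a11, a12, a13, a14, a15⟩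

/-- equality up to a power of `i` -/
def eqv (x y : Mat9) : Bool := beq x y || beq x (neg y) || beq x (muli y) || beq x (neg (muli y))

/-- the field element `a + b i` -/
def v (a b : ℕ) : K9 := (a : K9) + (b : K9) * K9.mk 3

/-- the matrix -/
def toM : Mat9 → Matrix (Fin 4) (Fin 4) K9
  | ⟨a0, a1, a2, a3, a4, a5, a6, a7, a8, a9, a10, a11, a12, a13, a14, a15, b0, b1, b2, b3, b4, b5, b6, b7, b8, b9, b10, b11, b12, b13, b14, b15⟩ =>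
    ![![v a0 b0, v a1 b1, v a2 b2, v a3 b3], ![v a4 b4, v a5 b5, v a6 b6, v a7 b7], ![v a8 b8, v a9 b9, v a10 b10, v a11 b11], ![v a12 b12, v a13 b13, v a14 b14, v a15 b15]]

theorem three_zero : (3 : K9) = 0 := by decide +kernel

theorem I_sq : K9.mk 3 * K9.mk 3 = -1 := by decide +kernel

theorem mod3_cast (x : ℕ) : ((x % 3 : ℕ) : K9) = (x : K9) := by
  conv_rhs => rw [← Nat.mod_add_div x 3]
  push_cast
  rw [three_zero, zero_mul, add_zero]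

theorem v_mod (a b : ℕ) : v (a % 3) (b % 3) = v a b := by
  unfold v
  rw [mod3_cast, mod3_cast]

theorem v_mul4 (a₀ a₁ a₂ a₃ b₀ b₁ b₂ b₃ c₀ c₁ c₂ c₃ d₀ d₁ d₂ d₃ : ℕ) :
    v ((a₀ * c₀ + a₁ * c₁ + a₂ * c₂ + a₃ * c₃ + 2 * (b₀ * d₀ + b₁ * d₁ + b₂ * d₂ + b₃ * d₃)) % 3)
      ((a₀ * d₀ + a₁ * d₁ + a₂ * d₂ + a₃ * d₃ + b₀ * c₀ + b₁ * c₁ + b₂ * c₂ + b₃ * c₃) % 3) =
    v a₀ b₀ * v c₀ d₀ + v a₁ b₁ * v c₁ d₁ + v a₂ b₂ * v c₂ d₂ + v a₃ b₃ * v c₃ d₃ := by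
  rw [v_mod]
  unfold v
  push_cast
  linear_combination (-((b₀ : K9) * d₀ + b₁ * d₁ + b₂ * d₂ + b₃ * d₃)) * I_sq +
    ((b₀ : K9) * d₀ + b₁ * d₁ + b₂ * d₂ + b₃ * d₃) * three_zero

theorem v_neg (a b : ℕ) : v (2 * a % 3) (2 * b % 3) = - v a b := by
  rw [v_mod]
  unfold v
  push_cast
  linear_combination ((a : K9) + b * K9.mk 3) * three_zero

theorem v_muli (a b : ℕ) : v (2 * b % 3) a = K9.mk 3 * v a b := by
  have h1 : v (2 * b % 3) a = v (2 * b) a := by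
    unfold v
    rw [mod3_cast]
  rw [h1]
  unfold v
  push_cast
  linear_combination (-(b : K9)) * I_sq + (b : K9) * three_zero

theorem toM_mul (x y : Mat9) : toM (mul x y) = toM x * toM y := by
  obtain ⟨a0, a1, a2, a3, a4, a5, a6, a7, a8, a9, a10, a11, a12, a13, a14, a15, b0, b1, b2, b3, b4, b5, b6, b7, b8, b9, b10, b11, b12, b13, b14, b15⟩ := x
  obtain ⟨c0, c1, c2, c3, c4, c5, c6, c7, c8, c9, c10, c11, c12, c13, c14, c15, d0, d1, d2, d3, d4, d5, d6, d7, d8, d9, d10, d11, d12, d13, d14, d15⟩ := y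
  ext i j
  rw [Matrix.mul_apply, Fin.sum_univ_four]
  fin_cases i <;> fin_cases j <;> exact v_mul4 _ _ _ _ _ _ _ _ _ _ _ _ _ _ _ _

theorem toM_neg (x : Mat9) : toM (neg x) = (-1 : K9) • toM x := by
  obtain ⟨a0, a1, a2, a3, a4, a5, a6, a7, a8, a9, a10, a11, a12, a13, a14, a15, b0, b1, b2, b3, b4, b5, b6, b7, b8, b9, b10, b11, b12, b13, b14, b15⟩ := x
  ext i j
  rw [Matrix.smul_apply, smul_eq_mul, neg_one_mul]
  fin_cases i <;> fin_cases j <;> exact v_neg _ _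

theorem toM_muli (x : Mat9) : toM (muli x) = (K9.mk 3) • toM x := by
  obtain ⟨a0, a1, a2, a3, a4, a5, a6, a7, a8, a9, a10, a11, a12, a13, a14, a15, b0, b1, b2, b3, b4, b5, b6, b7, b8, b9, b10, b11, b12, b13, b14, b15⟩ := x
  ext i j
  rw [Matrix.smul_apply, smul_eq_mul]
  fin_cases i <;> fin_cases j <;> exact v_muli _ _

theorem beq_eq {x y : Mat9} (h : beq x y = true) : x = y := by
  obtain ⟨a0, a1, a2, a3, a4, a5, a6, a7, a8, a9, a10, a11, a12, a13, a14, a15, b0, b1, b2, b3, b4, b5, b6, b7, b8, b9, b10, b11, b12, b13, b14, b15⟩ := x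
  obtain ⟨c0, c1, c2, c3, c4, c5, c6, c7, c8, c9, c10, c11, c12, c13, c14, c15, d0, d1, d2, d3, d4, d5, d6, d7, d8, d9, d10, d11, d12, d13, d14, d15⟩ := y
  simp only [beq, Bool.and_eq_true, Nat.beq_eq] at h
  simp only [Mat9.mk.injEq]
  tauto

theorem beq_refl (x : Mat9) : beq x x = true := by
  obtain ⟨a0, a1, a2, a3, a4, a5, a6, a7, a8, a9, a10, a11, a12, a13, a14, a15, b0, b1, b2, b3, b4, b5, b6, b7, b8, b9, b10, b11, b12, b13, b14, b15⟩ := x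
  simp only [beq, Bool.and_eq_true, Nat.beq_eq, and_self]

/-- reduced entries -/
def Red : Mat9 → Prop
  | ⟨a0, a1, a2, a3, a4, a5, a6, a7, a8, a9, a10, a11, a12, a13, a14, a15, b0, b1, b2, b3, b4, b5, b6, b7, b8, b9, b10, b11, b12, b13, b14, b15⟩ =>
    a0 < 3 ∧ a1 < 3 ∧ a2 < 3 ∧ a3 < 3 ∧ a4 < 3 ∧ a5 < 3 ∧ a6 < 3 ∧ a7 < 3 ∧ a8 < 3 ∧ a9 < 3 ∧ a10 < 3 ∧ a11 < 3 ∧ a12 < 3 ∧ a13 < 3 ∧ a14 < 3 ∧ a15 < 3 ∧ b0 < 3 ∧ b1 < 3 ∧ b2 < 3 ∧ b3 < 3 ∧ b4 < 3 ∧ b5 < 3 ∧ b6 < 3 ∧ b7 < 3 ∧ b8 < 3 ∧ b9 < 3 ∧ b10 < 3 ∧ b11 < 3 ∧ b12 < 3 ∧ b13 < 3 ∧ b14 < 3 ∧ b15 < 3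

theorem mul_red (x y : Mat9) : Red (mul x y) := by
  obtain ⟨a0, a1, a2, a3, a4, a5, a6, a7, a8, a9, a10, a11, a12, a13, a14, a15, b0, b1, b2, b3, b4, b5, b6, b7, b8, b9, b10, b11, b12, b13, b14, b15⟩ := x
  obtain ⟨c0, c1, c2, c3, c4, c5, c6, c7, c8, c9, c10, c11, c12, c13, c14, c15, d0, d1, d2, d3, d4, d5, d6, d7, d8, d9, d10, d11, d12, d13, d14, d15⟩ := y
  have h : ∀ n : ℕ, n % 3 < 3 := fun n => Nat.mod_lt _ (by norm_num)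
  simp only [mul, Red, h, and_self]

theorem v_inj' : ∀ a b c d : Fin 3, v a b = v c d → a = c ∧ b = d := by decide +kernel

theorem v_inj {a b c d : ℕ} (ha : a < 3) (hb : b < 3) (hc : c < 3) (hd : d < 3) (h : v a b = v c d) : a = c ∧ b = d := by
  have := v_inj' ⟨a, ha⟩ ⟨b, hb⟩ ⟨c, hc⟩ ⟨d, hd⟩ h
  exact ⟨Fin.ext_iff.1 this.1, Fin.ext_iff.1 this.2⟩

theorem toM_inj {x y : Mat9} (hx : Red x) (hy : Red y) (h : toM x = toM y) : x = y := by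
  obtain ⟨a0, a1, a2, a3, a4, a5, a6, a7, a8, a9, a10, a11, a12, a13, a14, a15, b0, b1, b2, b3, b4, b5, b6, b7, b8, b9, b10, b11, b12, b13, b14, b15⟩ := x
  obtain ⟨c0, c1, c2, c3, c4, c5, c6, c7, c8, c9, c10, c11, c12, c13, c14, c15, d0, d1, d2, d3, d4, d5, d6, d7, d8, d9, d10, d11, d12, d13, d14, d15⟩ := y
  obtain ⟨ha0, ha1, ha2, ha3, ha4, ha5, ha6, ha7, ha8, ha9, ha10, ha11, ha12, ha13, ha14, ha15, hb0, hb1, hb2, hb3, hb4, hb5, hb6, hb7, hb8, hb9, hb10, hb11, hb12, hb13, hb14, hb15⟩ := hx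
  obtain ⟨hc0, hc1, hc2, hc3, hc4, hc5, hc6, hc7, hc8, hc9, hc10, hc11, hc12, hc13, hc14, hc15, hd0, hd1, hd2, hd3, hd4, hd5, hd6, hd7, hd8, hd9, hd10, hd11, hd12, hd13, hd14, hd15⟩ := hy
  obtain ⟨rfl, rfl⟩ := v_inj ha0 hb0 hc0 hd0 (congrFun (congrFun h 0) 0)
  obtain ⟨rfl, rfl⟩ := v_inj ha1 hb1 hc1 hd1 (congrFun (congrFun h 0) 1)
  obtain ⟨rfl, rfl⟩ := v_inj ha2 hb2 hc2 hd2 (congrFun (congrFun h 0) 2)
  obtain ⟨rfl, rfl⟩ := v_inj ha3 hb3 hc3 hd3 (congrFun (congrFun h 0) 3)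
  obtain ⟨rfl, rfl⟩ := v_inj ha4 hb4 hc4 hd4 (congrFun (congrFun h 1) 0)
  obtain ⟨rfl, rfl⟩ := v_inj ha5 hb5 hc5 hd5 (congrFun (congrFun h 1) 1)
  obtain ⟨rfl, rfl⟩ := v_inj ha6 hb6 hc6 hd6 (congrFun (congrFun h 1) 2)
  obtain ⟨rfl, rfl⟩ := v_inj ha7 hb7 hc7 hd7 (congrFun (congrFun h 1) 3)
  obtain ⟨rfl, rfl⟩ := v_inj ha8 hb8 hc8 hd8 (congrFun (congrFun h 2) 0)
  obtain ⟨rfl, rfl⟩ := v_inj ha9 hb9 hc9 hd9 (congrFun (congrFun h 2) 1)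
  obtain ⟨rfl, rfl⟩ := v_inj ha10 hb10 hc10 hd10 (congrFun (congrFun h 2) 2)
  obtain ⟨rfl, rfl⟩ := v_inj ha11 hb11 hc11 hd11 (congrFun (congrFun h 2) 3)
  obtain ⟨rfl, rfl⟩ := v_inj ha12 hb12 hc12 hd12 (congrFun (congrFun h 3) 0)
  obtain ⟨rfl, rfl⟩ := v_inj ha13 hb13 hc13 hd13 (congrFun (congrFun h 3) 1)
  obtain ⟨rfl, rfl⟩ := v_inj ha14 hb14 hc14 hd14 (congrFun (congrFun h 3) 2)
  obtain ⟨rfl, rfl⟩ := v_inj ha15 hb15 hc15 hd15 (congrFun (congrFun h 3) 3)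
  rfl

/-- the special unitary group -/
abbrev SU := Cfsg.SU 4 K9 3

/-- the matrix of an element -/
def M (g : SU) : Matrix (Fin 4) (Fin 4) K9 := ((g : Matrix.SpecialLinearGroup (Fin 4) K9) : Matrix (Fin 4) (Fin 4) K9)

theorem M_mul (g h : SU) : M (g * h) = M g * M h := rfl

theorem M_one : M 1 = 1 := rfl

theorem M_inj {g h : SU} (H : M g = M h) : g = h := Subtype.ext (Subtype.ext H)

theorem mk_eq_of_smul {g h : SU} {c : K9} (H : M g = c • M h) :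
    (QuotientGroup.mk g : SU ⧸ Subgroup.center SU) = QuotientGroup.mk h := by
  symm
  rw [QuotientGroup.eq, Subgroup.mem_center_iff]
  have h1 : M (h⁻¹ * g) = c • (1 : Matrix (Fin 4) (Fin 4) K9) := by
    rw [M_mul, H, Matrix.mul_smul, ← M_mul, inv_mul_cancel, M_one]
  intro x
  apply M_inj
  rw [M_mul x, M_mul _ x, h1, Matrix.mul_smul, Matrix.smul_mul, mul_one, one_mul]

/-- the special unitary group as a system -/
def sys : Sys SU Mat9 where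
  mul := mul
  beq := beq
  eqv := eqv
  R g a := M g = toM a
  R_mul := by
    intro g h a b hg hh
    show M (g * h) = toM (mul a b)
    rw [M_mul, toM_mul, hg, hh]
  beq_eq := beq_eq
  R_eqv := by
    intro g h a b hg hh hab
    unfold eqv at hab
    rw [Bool.or_eq_true, Bool.or_eq_true, Bool.or_eq_true] at hab
    rcases hab with ((hab | hab) | hab) | hab
    · exact mk_eq_of_smul (c := 1) (by rw [one_smul, hg, hh, beq_eq hab])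
    · exact mk_eq_of_smul (c := -1) (by rw [hg, hh, beq_eq hab, toM_neg])
    · exact mk_eq_of_smul (c := K9.mk 3) (by rw [hg, hh, beq_eq hab, toM_muli])
    · exact mk_eq_of_smul (c := -K9.mk 3) (by rw [hg, hh, beq_eq hab, toM_neg, toM_muli, smul_smul, neg_one_mul])
  R_inj := fun hg hh => M_inj (hg.trans hh.symm)

theorem Runi {g : SU} {a b : Mat9} (ha : sys.R g a) (hb : sys.R g b) (ha' : ∃ x y, sys.mul x y = a)
    (hb' : ∃ x y, sys.mul x y = b) : a = b := by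
  obtain ⟨x, y, rfl⟩ := ha'
  obtain ⟨x', y', rfl⟩ := hb'
  exact toM_inj (mul_red _ _) (mul_red _ _) (Eq.trans (Eq.symm ha) hb)

theorem R_conj {g b : SU} {x y z : Mat9} (hx : sys.R g x) (hy : sys.R b y)
    (h : sys.beq (sys.mul x y) (sys.mul y z) = true) : sys.R (b⁻¹ * g * b) z := by
  have h1 : mul x y = mul y z := beq_eq h
  have hx' : M g = toM x := hx
  have hy' : M b = toM y := hy
  have h2 : M b * toM z = M g * M b := by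
    rw [hx', hy', ← toM_mul, ← toM_mul, h1]
  show M (b⁻¹ * g * b) = toM z
  rw [mul_assoc, M_mul, M_mul, ← h2, ← Matrix.mul_assoc, ← M_mul, inv_mul_cancel, M_one, Matrix.one_mul]

/-- membership -/
theorem exists_R {a : Mat9} (h1 : (toM a).det = 1)
    (h2 : ∀ j k, ∑ i, toM a i j * (toM a i k) ^ 3 = if j = k then 1 else 0) : ∃ g : SU, sys.R g a :=
  ⟨⟨⟨toM a, h1⟩, Cfsg.Agent.SporadicStructure.U43Herm.mem_SU_of_cols K9.card_K9' _ h2⟩, rfl⟩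

end Cfsg.Agent.H942.G4
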