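import Mathlib

/-!
# Matrices over a ring of characteristic 3 as lists of lists of natural numbers
-/

set_option autoImplicit false

namespace Cfsg.Agent.H942.LMat

/-- `a • xs + ys` -/
def axpy (a : ℕ) : List ℕ → List ℕ → List ℕ
  | x :: xs, y :: ys => (a * x + y) :: axpy a xs ys
  | x :: xs, [] => a * x :: axpy a xs []
  | [], _ => []

theorem axpy_length (a : ℕ) : ∀ xs ys : List ℕ, (axpy a xs ys).length = xs.length
  | x :: xs, y :: ys => by rw [axpy, List.length_cons, axpy_length a xs ys, List.length_cons]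
  | x :: xs, [] => by rw [axpy, List.length_cons, axpy_length a xs [], List.length_cons]
  | [], _ => by rw [axpy]

theorem axpy_getD (a : ℕ) : ∀ (xs ys : List ℕ) (_ : ys.length ≤ xs.length) (j : ℕ),
    (axpy a xs ys).getD j 0 = a * xs.getD j 0 + ys.getD j 0
  | x :: xs, y :: ys, h, 0 => by simp [axpy]
  | x :: xs, y :: ys, h, j + 1 => by
    rw [axpy, List.getD_cons_succ, List.getD_cons_succ, List.getD_cons_succ,
      axpy_getD a xs ys (by simpa using h) j]
  | x :: xs, [], h, 0 => by simp [axpy]
  | x :: xs, [], h, j + 1 => by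
    rw [axpy, List.getD_cons_succ, List.getD_cons_succ, axpy_getD a xs [] (by simp) j]
    simp
  | [], ys, h, j => by
    have : ys = [] := List.length_eq_zero_iff.1 (by simpa using h)
    subst this
    simp [axpy]

/-- row vector times matrix -/
def rowMul : List ℕ → List (List ℕ) → List ℕ
  | a :: as, b :: bs => axpy a b (rowMul as bs)
  | _, _ => []

theorem rowMul_length_le {n : ℕ} : ∀ (as : List ℕ) (bs : List (List ℕ)), (∀ b ∈ bs, b.length = n) →
    (rowMul as bs).length ≤ n
  | a :: as, b :: bs, h => by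
    rw [rowMul, axpy_length, h b (by simp)]
  | [], _, _ => by simp [rowMul]
  | _ :: _, [], _ => by simp [rowMul]

theorem rowMul_length {n : ℕ} : ∀ (as : List ℕ) (bs : List (List ℕ)), as ≠ [] → bs ≠ [] →
    (∀ b ∈ bs, b.length = n) → (rowMul as bs).length = n
  | a :: as, b :: bs, _, _, h => by
    rw [rowMul, axpy_length, h b (by simp)]
  | [], _, h, _, _ => absurd rfl h
  | _ :: _, [], _, h, _ => absurd rfl h

theorem rowMul_getD {n : ℕ} (j : ℕ) : ∀ (l : ℕ) (as : List ℕ) (bs : List (List ℕ)), (∀ b ∈ bs, b.length = n) →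
    as.length = l → bs.length = l →
    (rowMul as bs).getD j 0 = ∑ k : Fin l, as.getD k 0 * (bs.getD k []).getD j 0
  | 0, as, bs, _, h1, h2 => by
    have : as = [] := List.length_eq_zero_iff.1 h1
    subst this
    simp [rowMul]
  | l + 1, as, bs, h, h1, h2 => by
    cases as with
    | nil => simp at h1
    | cons a as =>
      cases bs with
      | nil => simp at h2
      | cons b bs =>
        have hb : ∀ c ∈ bs, c.length = n := fun c hc => h c (by simp [hc])
        rw [rowMul, axpy_getD, rowMul_getD j l as bs hb (by simpa using h1) (by simpa using h2), Fin.sum_univ_succ]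
        · simp
        · rw [h b (by simp)]
          exact rowMul_length_le as bs hb

/-- the matrix product, entries reduced modulo 3 -/
def mmul (A B : List (List ℕ)) : List (List ℕ) := A.map fun r => (rowMul r B).map fun x => x % 3

/-- well-formed -/
def WF (n : ℕ) (A : List (List ℕ)) : Prop := A.length = n ∧ ∀ r ∈ A, r.length = n

instance decWF (n : ℕ) (A : List (List ℕ)) : Decidable (WF n A) := by unfold WF; infer_instance

/-- interpretation as a matrix -/
def toM (R : Type*) [CommRing R] (n : ℕ) (A : List (List ℕ)) : Matrix (Fin n) (Fin n) R :=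
  Matrix.of fun i j => (((A.getD i []).getD j 0 : ℕ) : R)

theorem toM_apply {R : Type*} [CommRing R] {n : ℕ} (A : List (List ℕ)) (i j : Fin n) :
    toM R n A i j = (((A.getD i []).getD j 0 : ℕ) : R) := rfl

theorem mod3_cast {R : Type*} [CommRing R] (h3 : (3 : R) = 0) (x : ℕ) : ((x % 3 : ℕ) : R) = (x : R) := by
  conv_rhs => rw [← Nat.mod_add_div x 3]
  push_cast
  rw [h3, zero_mul, add_zero]

theorem mmul_WF {n : ℕ} (hn : 0 < n) {A B : List (List ℕ)} (hA : WF n A) (hB : WF n B) : WF n (mmul A B) := by
  refine ⟨by rw [mmul, List.length_map, hA.1], ?_⟩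
  intro r hr
  rw [mmul, List.mem_map] at hr
  obtain ⟨a, ha, rfl⟩ := hr
  rw [List.length_map]
  refine rowMul_length _ _ ?_ ?_ hB.2
  · intro h
    have := hA.2 a ha
    rw [h] at this
    simp at this
    omega
  · intro h
    have := hB.1
    rw [h] at this
    simp at this
    omega

theorem toM_mmul {R : Type*} [CommRing R] (h3 : (3 : R) = 0) {n : ℕ} {A B : List (List ℕ)} (hA : WF n A)
    (hB : WF n B) : toM R n (mmul A B) = toM R n A * toM R n B := by
  ext i j
  rw [Matrix.mul_apply, toM_apply]
  have hi : (i : ℕ) < A.length := by rw [hA.1]; exact i.2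
  have h1 : (mmul A B).getD i [] = (rowMul (A.getD i []) B).map fun x => x % 3 := by
    rw [mmul, List.getD_eq_getElem _ _ (by rw [List.length_map]; exact hi), List.getElem_map,
      List.getD_eq_getElem _ _ hi]
  rw [h1]
  have h2 : ((rowMul (A.getD i []) B).map fun x => x % 3).getD j 0 = (rowMul (A.getD i []) B).getD j 0 % 3 := by
    rw [show (0 : ℕ) = 0 % 3 from rfl, List.getD_map]
  have h3' : (A.getD i []).length = n := by
    rw [List.getD_eq_getElem _ _ hi]
    exact hA.2 _ (List.getElem_mem hi)
  rw [h2, mod3_cast h3, rowMul_getD (j : ℕ) n _ _ hB.2 h3' hB.1]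
  push_cast
  rfl

/-- entrywise `x + c y` modulo 3 -/
def mlin (c : ℕ) (A B : List (List ℕ)) : List (List ℕ) :=
  List.zipWith (fun r s => List.zipWith (fun x y => (x + c * y) % 3) r s) A B

theorem mlin_WF {n c : ℕ} {A B : List (List ℕ)} (hA : WF n A) (hB : WF n B) : WF n (mlin c A B) := by
  refine ⟨by rw [mlin, List.length_zipWith, hA.1, hB.1, min_self], ?_⟩
  intro r hr
  rw [mlin, List.mem_iff_getElem] at hr
  obtain ⟨i, hi, rfl⟩ := hr
  rw [List.length_zipWith] at hi
  rw [List.getElem_zipWith, List.length_zipWith, hA.2 _ (List.getElem_mem _), hB.2 _ (List.getElem_mem _), min_self]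

theorem toM_mlin {R : Type*} [CommRing R] (h3 : (3 : R) = 0) {n : ℕ} (c : ℕ) {A B : List (List ℕ)} (hA : WF n A)
    (hB : WF n B) : toM R n (mlin c A B) = toM R n A + (c : R) • toM R n B := by
  ext i j
  rw [Matrix.add_apply, Matrix.smul_apply, toM_apply, toM_apply, toM_apply, smul_eq_mul]
  have hi : (i : ℕ) < A.length := by rw [hA.1]; exact i.2
  have hi' : (i : ℕ) < B.length := by rw [hB.1]; exact i.2
  have hj : (j : ℕ) < (A[(i : ℕ)]).length := by rw [hA.2 _ (List.getElem_mem _)]; exact j.2
  have hj' : (j : ℕ) < (B[(i : ℕ)]).length := by rw [hB.2 _ (List.getElem_mem _)]; exact j.2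
  have hrow : (mlin c A B).getD i [] = List.zipWith (fun x y => (x + c * y) % 3) A[(i : ℕ)] B[(i : ℕ)] := by
    rw [mlin, List.getD_eq_getElem _ _ (by rw [List.length_zipWith]; exact lt_min hi hi'), List.getElem_zipWith]
  rw [hrow, List.getD_eq_getElem _ _ (by rw [List.length_zipWith]; exact lt_min hj hj'), List.getElem_zipWith,
    mod3_cast h3, List.getD_eq_getElem _ _ hi, List.getD_eq_getElem _ _ hi', List.getD_eq_getElem _ _ hj,
    List.getD_eq_getElem _ _ hj']
  push_cast
  rfl

/-- equality of lists of lists of numbers -/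
def beqL : List ℕ → List ℕ → Bool
  | a :: as, b :: bs => Nat.beq a b && beqL as bs
  | [], [] => true
  | _, _ => false

theorem beqL_eq : ∀ {A B : List ℕ}, beqL A B = true → A = B
  | a :: as, b :: bs, h => by
    rw [beqL, Bool.and_eq_true] at h
    rw [Nat.eq_of_beq_eq_true h.1, beqL_eq h.2]
  | [], [], _ => rfl
  | [], _ :: _, h => by simp [beqL] at h
  | _ :: _, [], h => by simp [beqL] at h

/-- equality of lists of lists of numbers -/
def beqM : List (List ℕ) → List (List ℕ) → Bool
  | a :: as, b :: bs => beqL a b && beqM as bs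
  | [], [] => true
  | _, _ => false

theorem beqM_eq : ∀ {A B : List (List ℕ)}, beqM A B = true → A = B
  | a :: as, b :: bs, h => by
    rw [beqM, Bool.and_eq_true] at h
    rw [beqL_eq h.1, beqM_eq h.2]
  | [], [], _ => rfl
  | [], _ :: _, h => by simp [beqM] at h
  | _ :: _, [], h => by simp [beqM] at h

end Cfsg.Agent.H942.LMat
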