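import Mathlib
import Cfsg.Agent.H942.Sp6Data
import Cfsg.Agent.H942.Common

/-!
# `PSp₆(3)` is not a subgroup of `E₈(3)`
-/

set_option autoImplicit false

namespace Cfsg.Agent.H942.Sp6

open Cfsg Cfsg.Lie Cfsg.Agent.H657 IsLocalRing Module
open Cfsg.Agent.H942.E8Alc Cfsg.Agent.H942.E8Val Cfsg.Agent.H942.Enum Cfsg.Agent.H942.Forest
open Cfsg.Agent.H942.LMat Cfsg.Agent.H942.Pool Cfsg.Agent.H942.Sp6Sys Cfsg.Agent.H942.Sp6Data Cfsg.Agent.H942.Common

theorem Elen : E.length = 128 := by decide +kernel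

theorem Sqlen : Sq.length = 4 := by decide +kernel

theorem memR {L : List (List (List ℕ))} (h : chkMem L = true) : ∀ i < L.length, ∃ g : Sp, sys.R g (L.getD i []) := by
  intro i hi
  rw [chkMem, List.all_eq_true] at h
  have h1 := h _ (List.getElem_mem hi)
  rw [Bool.and_eq_true, decide_eq_true_iff] at h1
  rw [List.getD_eq_getElem _ _ hi]
  exact exists_R h1.1 h1.2

theorem oneR : sys.R 1 one6 := by
  refine ⟨by decide, ?_⟩
  rw [M_one]
  decide +kernel

theorem arith {a b t e d : ℤ} (ha : (a, 248, 248) ∈ L8) (hb : (b, 248, 248) ∈ L8) (ht : (t, a, 248) ∈ L8)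
    (he : (e, t, a) ∈ L8) (ha' : a ≠ 248) (hb' : b ≠ 248)
    (h : 248 + 11 * a + 24 * b + 44 * t + 48 * e = 128 * d) : False := by
  have h1 : a = -8 ∨ a = 24 := by
    simp [L8] at ha
    omega
  have h2 : b = -8 ∨ b = 24 := by
    simp [L8] at hb
    omega
  rcases h1 with rfl | rfl
  · have h3 : t = -4 ∨ t = 0 ∨ t = 8 ∨ t = 64 ∨ t = 24 ∨ t = 28 ∨ t = 4 ∨ t = 132 := by
      simp [L8] at ht
      omega
    rcases h3 with rfl | rfl | rfl | rfl | rfl | rfl | rfl | rfl <;> simp [L8] at ht he <;> omega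
  · have h3 : t = -4 ∨ t = 0 ∨ t = 8 ∨ t = 64 ∨ t = 24 ∨ t = 28 ∨ t = 4 ∨ t = 132 := by
      simp [L8] at ht
      omega
    rcases h3 with rfl | rfl | rfl | rfl | rfl | rfl | rfl | rfl <;> simp [L8] at ht he <;> omega

/-- the class function recording triviality -/
theorem triv_class {Q : Type*} [Group Q] (n : ℕ) : ∀ g h : Q, ((h⁻¹ * g * h) ^ n = 1) = (g ^ n = 1) := by
  intro g h
  have h1 : (h⁻¹ * g * h) ^ n = h⁻¹ * g ^ n * h := by
    have := conj_pow (i := n) (a := h⁻¹) (b := g)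
    rwa [inv_inv] at this
  rw [h1]
  apply propext
  constructor
  · intro h2
    have h3 : g ^ n = h * (h⁻¹ * g ^ n * h) * h⁻¹ := by group
    rw [h3, h2]
    group
  · intro h2
    rw [h2]
    group

theorem psp6 (H : Subgroup ↥(Cfsg.Lie.chevE8.group (ZMod 3))) : IsEmpty (↥H ≃* Cfsg.PSp 3 (ZMod 3)) := by
  refine ⟨fun e0 => ?_⟩
  let F : Cfsg.PSp 3 (ZMod 3) →* ↥(chevE8.group (ZMod 3)) := H.subtype.comp e0.symm.toMonoidHom
  have hF : Function.Injective F := by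
    intro x y hxy
    exact e0.symm.injective (Subtype.ext hxy)
  obtain ⟨M, V, hM, hV, hch⟩ := exists_V
  -- the elements
  have hb0 : ∀ i : ℕ, ∃ g : Sp, i < B.length → sys.R g (B.getD i []) := by
    intro i
    by_cases hi : i < B.length
    · obtain ⟨g, hg⟩ := memR memB i hi
      exact ⟨g, fun _ => hg⟩
    · exact ⟨1, fun h => absurd h hi⟩
  choose b hb using hb0
  have hb' : ∀ i < B.length, sys.R (b i)⁻¹ (B'.getD i []) := by
    intro i hi
    obtain ⟨g, hg⟩ := memR memB' i hi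
    have h1 := invB
    rw [List.all_eq_true] at h1
    have h2 := beqM_eq (h1 i (List.mem_range.2 hi))
    have h3 := sys.R_mul (hb i hi) hg
    have h4 : sys.R (b i * g) one6 := by
      rw [← h2]
      exact h3
    have h5 : b i * g = 1 := sys.R_inj h4 oneR
    rw [inv_eq_of_mul_eq_one_right h5]
    exact hg
  have hg0 : ∀ i : ℕ, ∃ g : Sp, i < G.length → sys.R g (G.getD i []) := by
    intro i
    by_cases hi : i < G.length
    · obtain ⟨g, hg⟩ := memR memG i hi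
      exact ⟨g, fun _ => hg⟩
    · exact ⟨1, fun h => absurd h hi⟩
  choose gen hgen using hg0
  have hc0 : ∀ i : ℕ, ∃ g : Sp, i < 5 → sys.R g (Fo.getD i []) := by
    intro i
    by_cases hi : i < 5
    · obtain ⟨g, hg⟩ := memR memC i hi
      refine ⟨g, fun _ => ?_⟩
      have : (Fo.take 5).getD i [] = Fo.getD i [] := by
        interval_cases i <;> rfl
      rwa [this] at hg
    · exact ⟨1, fun h => absurd h hi⟩
  choose c hc using hc0
  obtain ⟨e, he, ht⟩ := exists_table sys beqM_refl Runi gen (fun i hi => hgen i hi) b (fun i hi => hb i hi) (dflt := [])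
    (E := E) (G := G) (W := B) (T := T) (par := tpar) oneR (by rw [Elen]; norm_num) tab noncen
  have hFo := exists_forest sys (fun i hi => hb i hi) hb' (fun i hi => hc i hi) forest
  have hval : ∀ {A : Type} (φ : Sp ⧸ Subgroup.center Sp → A),
      (∀ g h : Sp ⧸ Subgroup.center Sp, φ (h⁻¹ * g * h) = φ g) → ∀ i < E.length, root.getD (idx.getD i 0) 0 < 5 ∧
      φ (QuotientGroup.mk (e i)) = φ (QuotientGroup.mk (c (root.getD (idx.getD i 0) 0))) :=
    fun φ hφ => val_of_forest sys hφ hFo he indices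
  -- squares
  have hsq : ∀ i < Sq.length, sys.R (c (i + 1) * c (i + 1)) (Sq.getD i []) := by
    intro i hi
    have hi4 : i < 4 := hi
    have h1 := sys.R_mul (hc (i + 1) (by omega)) (hc (i + 1) (by omega))
    obtain ⟨s1, s2, s3, s4⟩ := squares
    interval_cases i
    · rw [← beqM_eq s1]; exact h1
    · rw [← beqM_eq s2]; exact h1
    · rw [← beqM_eq s3]; exact h1
    · rw [← beqM_eq s4]; exact h1
  have hsval : ∀ {A : Type} (φ : Sp ⧸ Subgroup.center Sp → A),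
      (∀ g h : Sp ⧸ Subgroup.center Sp, φ (h⁻¹ * g * h) = φ g) → ∀ i < Sq.length,
      root.getD (sidx.getD i 0) 0 < 5 ∧
      φ (QuotientGroup.mk (c (i + 1) * c (i + 1))) = φ (QuotientGroup.mk (c (root.getD (sidx.getD i 0) 0))) :=
    fun φ hφ => val_of_forest sys hφ hFo hsq sindices
  obtain ⟨r1, r2, r3, r4⟩ := sroots
  have hc1 : c 0 = 1 := sys.R_inj (hc 0 (by norm_num)) oneR
  let q : ℕ → Cfsg.PSp 3 (ZMod 3) := fun i => QuotientGroup.mk (c i)
  have hq0 : q 0 = 1 := by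
    show (QuotientGroup.mk (c 0) : Sp ⧸ Subgroup.center Sp) = 1
    rw [hc1]
    rfl
  -- the class functions
  have hφ : ∀ g h : Sp ⧸ Subgroup.center Sp, bc 3 (adj V F) (h⁻¹ * g * h) = bc 3 (adj V F) g := bc_conj' F
  have hψ := fun n : ℕ => triv_class (Q := Sp ⧸ Subgroup.center Sp) n
  -- the squares of the representatives
  have hqq : ∀ i, (QuotientGroup.mk (c (i + 1) * c (i + 1)) : Sp ⧸ Subgroup.center Sp) = q (i + 1) ^ 2 := by
    intro i
    rw [pow_two]
    rfl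
  have o1 : q 1 ^ 2 = 1 := by
    have h1 := (hsval (fun g => g ^ 1 = 1) (hψ 1) 0 (by rw [Sqlen]; norm_num)).2
    rw [r1, hqq, pow_one, pow_one] at h1
    rw [h1]
    exact hq0
  have o2 : q 2 ^ 2 = 1 := by
    have h1 := (hsval (fun g => g ^ 1 = 1) (hψ 1) 1 (by rw [Sqlen]; norm_num)).2
    rw [r2, hqq, pow_one, pow_one] at h1
    rw [h1]
    exact hq0
  have o3 : q 3 ^ 4 = 1 := by
    have h1 := (hsval (fun g => g ^ 2 = 1) (hψ 2) 2 (by rw [Sqlen]; norm_num)).2
    rw [r3, hqq, ← pow_mul] at h1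
    rw [h1]
    exact o1
  have o4 : q 4 ^ 8 = 1 := by
    have h1 := (hsval (fun g => g ^ 4 = 1) (hψ 4) 3 (by rw [Sqlen]; norm_num)).2
    rw [r4, hqq, ← pow_mul] at h1
    rw [h1]
    exact o3
  have n1 : q 1 ≠ 1 := by
    intro h
    have h1 := (hval (fun g => g ^ 1 = 1) (hψ 1) 2 (by rw [Elen]; norm_num)).2
    have h2 : root.getD (idx.getD 2 0) 0 = 1 := by decide +kernel
    rw [h2, pow_one, pow_one] at h1
    exact ht.ne 2 (by rw [Elen]; norm_num) (by norm_num) (h1.symm ▸ h)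
  have n2 : q 2 ≠ 1 := by
    intro h
    have h1 := (hval (fun g => g ^ 1 = 1) (hψ 1) 1 (by rw [Elen]; norm_num)).2
    have h2 : root.getD (idx.getD 1 0) 0 = 2 := by decide +kernel
    rw [h2, pow_one, pow_one] at h1
    exact ht.ne 1 (by rw [Elen]; norm_num) (by norm_num) (h1.symm ▸ h)
  have v3 : bc 3 (adj V F) (q 3 ^ 2) = bc 3 (adj V F) (q 1) := by
    have h1 := (hsval (fun g => bc 3 (adj V F) g) hφ 2 (by rw [Sqlen]; norm_num)).2
    rwa [r3, hqq] at h1
  have v4 : bc 3 (adj V F) (q 4 ^ 2) = bc 3 (adj V F) (q 3) := by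
    have h1 := (hsval (fun g => bc 3 (adj V F) g) hφ 3 (by rw [Sqlen]; norm_num)).2
    rwa [r4, hqq] at h1
  have v4' : bc 3 (adj V F) (q 4 ^ 4) = bc 3 (adj V F) (q 1) := by
    have hφ2 : ∀ g h : Sp ⧸ Subgroup.center Sp, bc 3 (adj V F) ((h⁻¹ * g * h) ^ 2) = bc 3 (adj V F) (g ^ 2) := by
      intro g h
      have h1 : (h⁻¹ * g * h) ^ 2 = h⁻¹ * g ^ 2 * h := by
        rw [pow_two, pow_two]
        group
      rw [h1]
      exact hφ _ _
    have h1 := (hsval (fun g => bc 3 (adj V F) (g ^ 2)) hφ2 3 (by rw [Sqlen]; norm_num)).2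
    rw [r4, hqq, ← pow_mul] at h1
    exact h1.trans v3
  -- the values
  obtain ⟨a, a2, a4, La, ea, ea2, ea4, fa, fa2, fa4⟩ := val8 V F (g := q 1) (by
    rw [show (8 : ℕ) = 2 * 4 from rfl, pow_mul, o1, one_pow])
  obtain ⟨b1, b2, b4, Lb, eb, eb2, eb4, fb, fb2, fb4⟩ := val8 V F (g := q 2) (by
    rw [show (8 : ℕ) = 2 * 4 from rfl, pow_mul, o2, one_pow])
  obtain ⟨t, t2, t4, Lt, et, et2, et4, ft, ft2, ft4⟩ := val8 V F (g := q 3) (by
    rw [show (8 : ℕ) = 4 * 2 from rfl, pow_mul, o3, one_pow])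
  obtain ⟨u, u2, u4, Lu, eu, eu2, eu4, fu, fu2, fu4⟩ := val8 V F (g := q 4) o4
  have ha2 : a2 = 248 := fa2.1 (by rw [o1, map_one])
  have ha4 : a4 = 248 := fa4.1 (by rw [show (4 : ℕ) = 2 * 2 from rfl, pow_mul, o1, one_pow, map_one])
  have hb2 : b2 = 248 := fb2.1 (by rw [o2, map_one])
  have hb4 : b4 = 248 := fb4.1 (by rw [show (4 : ℕ) = 2 * 2 from rfl, pow_mul, o2, one_pow, map_one])
  have ht4 : t4 = 248 := ft4.1 (by rw [o3, map_one])
  have ht2 : t2 = a := by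
    have : (t2 : ℂ) = a := by rw [← et2, v3, ea]
    exact_mod_cast this
  have hu2 : u2 = t := by
    have : (u2 : ℂ) = t := by rw [← eu2, v4, et]
    exact_mod_cast this
  have hu4 : u4 = a := by
    have : (u4 : ℂ) = a := by rw [← eu4, v4', ea]
    exact_mod_cast this
  rw [ha2, ha4] at La
  rw [hb2, hb4] at Lb
  rw [ht2, ht4] at Lt
  rw [hu2, hu4] at Lu
  have ha' : a ≠ 248 := fun h => n1 (hF (by rw [fa.2 h, map_one]))
  have hb'' : b1 ≠ 248 := fun h => n2 (hF (by rw [fb.2 h, map_one]))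
  obtain ⟨o, o2', o4', Lo, eo, -, -, fo, -, -⟩ := val8 V F (g := q 0) (by rw [hq0, one_pow])
  have ho : o = 248 := fo.1 (by rw [hq0, map_one])
  -- the sum
  obtain ⟨d, hs⟩ : ∃ d : ℕ, ∑ i ∈ Finset.range E.length, bc 3 (adj V F) (QuotientGroup.mk (e i)) =
      ((E.length : ℕ) : ℂ) * (d : ℂ) :=
    ⟨_, sum_table hM hV F ht (by rw [Elen]; norm_num)⟩
  rw [Elen] at hs
  rw [Finset.sum_congr rfl fun i hi => (hval (fun g => bc 3 (adj V F) g) hφ i
    (by rw [Elen]; exact Finset.mem_range.1 hi)).2] at hs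
  rw [sum_of (r := 5) (f := fun i => root.getD (idx.getD i 0) 0)
    (fun i hi => (hval (fun g => bc 3 (adj V F) g) hφ i (by rw [Elen]; exact hi)).1)
    (fun k => bc 3 (adj V F) (q k))] at hs
  obtain ⟨c0, c1, c2, c3, c4⟩ := counts
  simp only [Finset.sum_range_succ, Finset.sum_range_zero, c0, c1, c2, c3, c4, eo, ea, eb, et, eu, zero_add] at hs
  refine arith La Lb Lt Lu ha' hb'' (d := (d : ℤ)) ?_
  rw [ho] at hs
  have h9 : ((248 + 11 * a + 24 * b1 + 44 * t + 48 * u : ℤ) : ℂ) = ((128 * (d : ℤ) : ℤ) : ℂ) := by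
    push_cast
    rw [nsmul_eq_mul, nsmul_eq_mul, nsmul_eq_mul, nsmul_eq_mul, nsmul_eq_mul] at hs
    push_cast at hs
    linear_combination hs
  exact_mod_cast h9

end Cfsg.Agent.H942.Sp6
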