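import Mathlib
import Cfsg.Prelude.Def_Classical
import Cfsg.Agent.H942.LMat
import Cfsg.Agent.H942.Pool

/-!
# `Sp₆(3)` by lists
-/

set_option autoImplicit false

namespace Cfsg.Agent.H942.Sp6Sys

open Cfsg.Agent.H942.LMat Cfsg.Agent.H942.Pool

/-- the symplectic group -/
abbrev Sp := Matrix.symplecticGroup (Fin 3) (ZMod 3)

/-- the matrix of an element, indexed by `Fin 6` -/
def M (g : Sp) : Matrix (Fin 6) (Fin 6) (ZMod 3) :=
  Matrix.reindex (finSumFinEquiv : Fin 3 ⊕ Fin 3 ≃ Fin 6) (finSumFinEquiv : Fin 3 ⊕ Fin 3 ≃ Fin 6)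
    (g : Matrix (Fin 3 ⊕ Fin 3) (Fin 3 ⊕ Fin 3) (ZMod 3))

theorem M_mul (g h : Sp) : M (g * h) = M g * M h := by
  unfold M
  rw [Submonoid.coe_mul]
  simp only [Matrix.reindex_apply]
  exact (Matrix.submatrix_mul_equiv _ _ _ _ _).symm

theorem M_inj {g h : Sp} (H : M g = M h) : g = h := by
  apply Subtype.ext
  exact (Matrix.reindex (finSumFinEquiv : Fin 3 ⊕ Fin 3 ≃ Fin 6) (finSumFinEquiv : Fin 3 ⊕ Fin 3 ≃ Fin 6)).injective H

theorem M_one : M 1 = 1 := by
  unfold M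
  rw [Submonoid.coe_one]
  simp only [Matrix.reindex_apply]
  exact Matrix.submatrix_one_equiv _

theorem mk_eq_of_neg {g h : Sp} (H : M g = - M h) :
    (QuotientGroup.mk g : Sp ⧸ Subgroup.center Sp) = QuotientGroup.mk h := by
  rw [QuotientGroup.eq, Subgroup.mem_center_iff]
  have h1 : M (g⁻¹ * h) = -1 := by
    have h2 : M h = - M g := by rw [H, neg_neg]
    rw [M_mul, h2, mul_neg, ← M_mul, inv_mul_cancel, M_one]
  intro x
  apply M_inj
  rw [M_mul x, M_mul _ x, h1]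
  simp

theorem three_zero : (3 : ZMod 3) = 0 := by decide

/-- entries less than 3 -/
def Red (a : List (List ℕ)) : Prop := ∀ r ∈ a, ∀ x ∈ r, x < 3

theorem mmul_red (a b : List (List ℕ)) : Red (mmul a b) := by
  intro r hr x hx
  rw [mmul, List.mem_map] at hr
  obtain ⟨s, -, rfl⟩ := hr
  rw [List.mem_map] at hx
  obtain ⟨y, -, rfl⟩ := hx
  exact Nat.mod_lt _ (by norm_num)

theorem toM_inj {n : ℕ} {a b : List (List ℕ)} (ha : WF n a) (hb : WF n b) (ra : Red a) (rb : Red b)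
    (h : toM (ZMod 3) n a = toM (ZMod 3) n b) : a = b := by
  apply List.ext_getElem (by rw [ha.1, hb.1])
  intro i h1 h2
  apply List.ext_getElem (by rw [ha.2 _ (List.getElem_mem _), hb.2 _ (List.getElem_mem _)])
  intro j h3 h4
  have hi : i < n := by rw [← ha.1]; exact h1
  have hj : j < n := by rw [← ha.2 _ (List.getElem_mem h1)]; exact h3
  have h5 := congrFun (congrFun h ⟨i, hi⟩) ⟨j, hj⟩
  rw [toM_apply, toM_apply] at h5
  simp only [List.getD_eq_getElem _ _ h1, List.getD_eq_getElem _ _ h2, List.getD_eq_getElem _ _ h3,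
    List.getD_eq_getElem _ _ h4] at h5
  have r1 := ra _ (List.getElem_mem h1) _ (List.getElem_mem h3)
  have r2 := rb _ (List.getElem_mem h2) _ (List.getElem_mem h4)
  have h6 := congrArg ZMod.val h5
  rwa [ZMod.val_natCast, ZMod.val_natCast, Nat.mod_eq_of_lt r1, Nat.mod_eq_of_lt r2] at h6

theorem beqL_refl : ∀ a : List ℕ, beqL a a = true
  | [] => rfl
  | a :: as => by rw [beqL, beqL_refl as, Bool.and_true]; exact Nat.beq_refl a

theorem beqM_refl : ∀ a : List (List ℕ), beqM a a = true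
  | [] => rfl
  | a :: as => by rw [beqM, beqM_refl as, beqL_refl]; rfl

/-- `Sp₆(3)` represented by lists of lists -/
def sys : Sys Sp (List (List ℕ)) where
  mul := mmul
  beq := beqM
  eqv a b := beqM a b || beqM a (mlin 1 b b)
  R g a := WF 6 a ∧ M g = toM (ZMod 3) 6 a
  R_mul := by
    rintro g h a b ⟨ha, hg⟩ ⟨hb, hh⟩
    exact ⟨mmul_WF (by norm_num) ha hb, by rw [M_mul, hg, hh, toM_mmul three_zero ha hb]⟩
  beq_eq := beqM_eq
  R_eqv := by
    rintro g h a b ⟨ha, hg⟩ ⟨hb, hh⟩ hab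
    rw [Bool.or_eq_true] at hab
    rcases hab with hab | hab
    · rw [beqM_eq hab] at hg
      rw [M_inj (hg.trans hh.symm)]
    · rw [beqM_eq hab, toM_mlin three_zero 1 hb hb] at hg
      apply mk_eq_of_neg
      rw [hg, hh]
      ext i j
      simp only [Matrix.add_apply, Matrix.smul_apply, Matrix.neg_apply, smul_eq_mul, Nat.cast_one, one_mul]
      generalize toM (ZMod 3) 6 b i j = z
      revert z
      decide
  R_inj := by
    rintro g h a ⟨-, hg⟩ ⟨-, hh⟩
    exact M_inj (hg.trans hh.symm)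

theorem Runi {g : Sp} {a b : List (List ℕ)} (ha : sys.R g a) (hb : sys.R g b) (ha' : ∃ x y, sys.mul x y = a)
    (hb' : ∃ x y, sys.mul x y = b) : a = b := by
  obtain ⟨x, y, rfl⟩ := ha'
  obtain ⟨x', y', rfl⟩ := hb'
  exact toM_inj ha.1 hb.1 (mmul_red _ _) (mmul_red _ _) (ha.2.symm.trans hb.2)

/-- the transpose -/
def trL (n : ℕ) (a : List (List ℕ)) : List (List ℕ) :=
  (List.range n).map fun j => (List.range n).map fun i => (a.getD i []).getD j 0

theorem trL_WF (n : ℕ) (a : List (List ℕ)) : WF n (trL n a) := by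
  refine ⟨by simp [trL], fun r hr => ?_⟩
  rw [trL, List.mem_map] at hr
  obtain ⟨j, -, rfl⟩ := hr
  simp

theorem toM_trL {R : Type*} [CommRing R] (n : ℕ) (a : List (List ℕ)) : toM R n (trL n a) = (toM R n a).transpose := by
  ext i j
  rw [Matrix.transpose_apply, toM_apply, toM_apply]
  congr 1
  have h1 : (i : ℕ) < (trL n a).length := by rw [trL, List.length_map, List.length_range]; exact i.2
  rw [List.getD_eq_getElem _ _ h1]
  simp only [trL, List.getElem_map, List.getElem_range]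
  have h2 : (j : ℕ) < ((List.range n).map fun k => (a.getD k []).getD (i : ℕ) 0).length := by
    rw [List.length_map, List.length_range]; exact j.2
  rw [List.getD_eq_getElem _ _ h2]
  simp only [List.getElem_map, List.getElem_range]

/-- the matrix of the form -/
def Jl : List (List ℕ) :=
  [[0, 0, 0, 2, 0, 0], [0, 0, 0, 0, 2, 0], [0, 0, 0, 0, 0, 2], [1, 0, 0, 0, 0, 0], [0, 1, 0, 0, 0, 0],
   [0, 0, 1, 0, 0, 0]]

theorem Jl_eq : Matrix.reindex (finSumFinEquiv : Fin 3 ⊕ Fin 3 ≃ Fin 6) (finSumFinEquiv : Fin 3 ⊕ Fin 3 ≃ Fin 6)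
    (Matrix.J (Fin 3) (ZMod 3)) = toM (ZMod 3) 6 Jl := by
  decide +kernel

/-- membership -/
theorem exists_R {a : List (List ℕ)} (ha : WF 6 a) (h : beqM (mmul (mmul a Jl) (trL 6 a)) Jl = true) :
    ∃ g : Sp, sys.R g a := by
  have hJ : WF 6 Jl := by decide
  have h1 := congrArg (toM (ZMod 3) 6) (beqM_eq h)
  rw [toM_mmul three_zero (mmul_WF (by norm_num) ha hJ) (trL_WF 6 a), toM_mmul three_zero ha hJ, toM_trL, ← Jl_eq] at h1
  let e : Fin 3 ⊕ Fin 3 ≃ Fin 6 := finSumFinEquiv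
  let A : Matrix (Fin 3 ⊕ Fin 3) (Fin 3 ⊕ Fin 3) (ZMod 3) := (Matrix.reindex e e).symm (toM (ZMod 3) 6 a)
  have hA : Matrix.reindex e e A = toM (ZMod 3) 6 a := Equiv.apply_symm_apply _ _
  refine ⟨⟨A, ?_⟩, ha, hA⟩
  rw [SymplecticGroup.mem_iff]
  apply (Matrix.reindex e e).injective
  have h2 : ∀ X Y : Matrix (Fin 3 ⊕ Fin 3) (Fin 3 ⊕ Fin 3) (ZMod 3),
      Matrix.reindex e e (X * Y) = Matrix.reindex e e X * Matrix.reindex e e Y := by
    intro X Y
    simp only [Matrix.reindex_apply]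
    exact (Matrix.submatrix_mul_equiv _ _ _ _ _).symm
  rw [h2, h2, hA]
  have h3 : Matrix.reindex e e A.transpose = (toM (ZMod 3) 6 a).transpose := by
    rw [← hA]
    rfl
  rw [h3]
  exact h1

end Cfsg.Agent.H942.Sp6Sys
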