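import Mathlib
import Cfsg.Agent.H942.U4Check
import Cfsg.Agent.H942.Core
import Cfsg.Agent.H942.Sp6
import Cfsg.Agent.LieClassical.FieldTransfer

/-!
# `PSU₄(3)` is not a subgroup of `E₈(3)`
-/

set_option autoImplicit false

namespace Cfsg.Agent.H942.U4

open Cfsg Cfsg.Lie Cfsg.Agent.H657 IsLocalRing Module
open Cfsg.Agent.H942.E8Alc Cfsg.Agent.H942.E8Val Cfsg.Agent.H942.Enum Cfsg.Agent.H942.Forest
open Cfsg.Agent.SporadicStructure.FieldNine Cfsg.Agent.H942.G4 Cfsg.Agent.H942.Fun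
open Cfsg.Agent.H942.U4Data Cfsg.Agent.H942.U4Check Cfsg.Agent.H942.Common Cfsg.Agent.H942.Core

theorem memR {n : ℕ} {L : ℕ → Mat9} (h : ∀ i < n, Mem (L i)) : ∃ g : ℕ → G4.SU, ∀ i < n, sys.R (g i) (L i) := by
  have h1 : ∀ i, ∃ g : G4.SU, i < n → sys.R g (L i) := by
    intro i
    by_cases hi : i < n
    · obtain ⟨g, hg⟩ := exists_R (h i hi).1 (h i hi).2
      exact ⟨g, fun _ => hg⟩
    · exact ⟨1, fun h => absurd h hi⟩
  choose g hg using h1
  exact ⟨g, fun i hi => hg i hi⟩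

theorem arith1 {a b t e f dS dE d5 : ℤ} (ha : (a, 248, 248) ∈ L8) (hb : (b, a, 248) ∈ L8) (ht : (t, a, 248) ∈ L8)
    (he : (e, b, a) ∈ L8) (hf : f = -2 ∨ f = 3 ∨ f = 23 ∨ f = 248) (ha' : a ≠ 248)
    (h1 : 248 + 35 * a + 20 * b + 56 * t + 16 * e = 128 * dS) (h2 : 248 + 15 * a = 16 * dE)
    (h3 : 248 + 15 * a + 32 * f + 32 * f = 80 * d5) (hSE : dS ≤ dE) (h5E : d5 ≤ dE) :
    a = -8 ∧ b = 8 ∧ t = 0 ∧ e = 0 ∧ dS = 1 ∧ (f = -2 ∨ f = 3) := by
  have k1 : a = -8 ∨ a = 24 := by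
    simp [L8] at ha
    omega
  rcases k1 with rfl | rfl
  · have k2 : b = 0 ∨ b = 8 ∨ b = 64 := by
      simp [L8] at hb
      omega
    have k3 : t = 0 ∨ t = 8 ∨ t = 64 := by
      simp [L8] at ht
      omega
    clear hb ht ha
    have k4 : (b = 0 ∧ (e = -4 ∨ e = 0 ∨ e = 4 ∨ e = 16)) ∨ (b = 8 ∧ e = 0) ∨
        (b = 64 ∧ (e = -4 ∨ e = 12 ∨ e = 44)) := by
      rcases k2 with rfl | rfl | rfl <;> simp [L8] at he <;> omega
    clear he k2
    omega
  · have k2 : b = -4 ∨ b = 4 ∨ b = 28 ∨ b = 132 := by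
      simp [L8] at hb
      omega
    have k3 : t = -4 ∨ t = 4 ∨ t = 28 ∨ t = 132 := by
      simp [L8] at ht
      omega
    clear hb ht ha
    have k4 : e % 2 = 0 := by
      rcases k2 with rfl | rfl | rfl | rfl <;> simp [L8] at he <;> omega
    have k5 : b % 8 = 4 := by omega
    have k6 : t % 4 = 0 := by omega
    clear he k2 k3 hf ha' h2 h3 hSE h5E
    exfalso
    omega

theorem sum_blocks {A : Type*} [AddCommMonoid A] (f : ℕ → A) : ∀ k : ℕ, ∑ i ∈ Finset.range (16 * k), f i =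
    ∑ a ∈ Finset.range k, ∑ j ∈ Finset.range 16, f (16 * a + j)
  | 0 => by simp
  | k + 1 => by
    rw [Nat.mul_succ, Finset.sum_range_add, sum_blocks f k]
    exact (Finset.sum_range_succ _ _).symm

theorem kr_lt : ∀ i < 8, (kr i).1 < 8 ∧ (kr i).2 < 5 := by decide +kernel

theorem u4 (H : Subgroup ↥(Cfsg.Lie.chevE8.group (ZMod 3))) : IsEmpty (↥H ≃* Cfsg.PSU 4 K9 3) := by
  refine ⟨fun e0 => ?_⟩
  let F : Cfsg.PSU 4 K9 3 →* ↥(chevE8.group (ZMod 3)) := H.subtype.comp e0.symm.toMonoidHom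
  have hF : Function.Injective F := by
    intro x y hxy
    exact e0.symm.injective (Subtype.ext hxy)
  obtain ⟨M, V, hM, hV, hch⟩ := exists_V
  -- the elements
  obtain ⟨b, hb⟩ := memR memB
  obtain ⟨gen, hgen⟩ := memR memG
  obtain ⟨gen5, hgen5⟩ := memR memG5
  obtain ⟨c, hc⟩ := memR memC
  obtain ⟨e, he, hS⟩ := Fun.exists_table sys beq_refl Runi hgen hb (E := S) (T := T) (Ti := Ti) (par := tpar) (wi := wS)
    (show G4.M 1 = toM (S 0) by rw [oneS]; rfl) (by norm_num) tab noncen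
  obtain ⟨e5, he5, hS5⟩ := Fun.exists_table sys beq_refl Runi hgen5 hb (E := S5) (T := T5) (Ti := Ti5) (par := tpar5)
    (wi := wS5) (show G4.M 1 = toM (S5 0) by rw [oneS5]; rfl) (by norm_num) tab5 noncen5
  have hE := sub_table hS (n' := 16) (m' := 4) (by norm_num) (by norm_num) (by norm_num) sub16
  have hO := sub_table hS (n' := 64) (m' := 6) (by norm_num) (by norm_num) (by norm_num) sub64
  have hE5 := sub_table hS5 (n' := 16) (m' := 4) (by norm_num) (by norm_num) (by norm_num) sub5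
  have hFo := Fun.exists_forest sys R_conj hb hc forest
  have hlenL : ∀ {n : ℕ} {f : ℕ → ℕ} {l : List ℕ}, cnts n f = l → ∀ k < 7, cntK n (fun i => root (f i)) k = l.getD k 0 := by
    intro n f l h k hk
    rw [← h, cnts, List.getD_eq_getElem _ _ (by rw [List.length_map, List.length_range]; exact hk), List.getElem_map,
      List.getElem_range]
  let q : ℕ → Cfsg.PSU 4 K9 3 := fun i => QuotientGroup.mk (c i)
  have hsum : ∀ {A : Type} [AddCommMonoid A] (φ : Cfsg.PSU 4 K9 3 → A), (∀ g h, φ (h⁻¹ * g * h) = φ g) →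
      ∀ {n : ℕ} {g : ℕ → G4.SU} {a : ℕ → Mat9} {f : ℕ → ℕ}, (∀ i < n, sys.R (g i) (a i)) →
      (∀ i < n, f i < 711 ∧ sys.eqv (a i) (Fo (f i)) = true) → ∀ {l : List ℕ}, cnts n f = l →
      ∑ i ∈ Finset.range n, φ (QuotientGroup.mk (g i)) =
        l.getD 0 0 • φ (q 0) + l.getD 1 0 • φ (q 1) + l.getD 2 0 • φ (q 2) + l.getD 3 0 • φ (q 3) +
        l.getD 4 0 • φ (q 4) + l.getD 5 0 • φ (q 5) + l.getD 6 0 • φ (q 6) := by
    intro A _ φ hφ n g a f hg hi l hl
    have h1 := sum_val sys hFo hφ hg hi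
    have h2 := hlenL hl
    simp only [Finset.sum_range_succ, Finset.sum_range_zero, zero_add, h2 0 (by norm_num), h2 1 (by norm_num),
      h2 2 (by norm_num), h2 3 (by norm_num), h2 4 (by norm_num), h2 5 (by norm_num), h2 6 (by norm_num)] at h1
    exact h1
  have hc1 : c 0 = 1 := G4.M_inj ((hc 0 (by norm_num)).trans (by rw [oneC]; rfl))
  have hq0 : q 0 = 1 := by
    show (QuotientGroup.mk (c 0) : G4.SU ⧸ Subgroup.center G4.SU) = 1
    rw [hc1]
    rfl
  -- class functions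
  have hφ : ∀ g h : Cfsg.PSU 4 K9 3, bc 3 (adj V F) (h⁻¹ * g * h) = bc 3 (adj V F) g := bc_conj' F
  have hφ2 : ∀ g h : Cfsg.PSU 4 K9 3, bc 3 (adj V F) ((h⁻¹ * g * h) ^ 2) = bc 3 (adj V F) (g ^ 2) := by
    intro g h
    have h1 : (h⁻¹ * g * h) ^ 2 = h⁻¹ * g ^ 2 * h := by
      rw [pow_two, pow_two]
      group
    rw [h1]
    exact hφ _ _
  have hψ := fun n : ℕ => Sp6.triv_class (Q := Cfsg.PSU 4 K9 3) n
  have hθ : ∀ g h : Cfsg.PSU 4 K9 3, theta F (h⁻¹ * g * h) = theta F g := theta_conj F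
  -- squares
  have hsq : ∀ {A : Type} (φ : Cfsg.PSU 4 K9 3 → A), (∀ g h, φ (h⁻¹ * g * h) = φ g) → ∀ i < 4,
      φ (q (i + 1) ^ 2) = φ (q (root (sidx i))) := by
    intro A φ hφ' i hi
    have h1 := allB_spec squares i hi
    rw [Bool.and_eq_true, Nat.blt_eq] at h1
    have h2 := (Fun.val sys hFo hφ' (sys.R_mul (hc (i + 1) (by omega)) (hc (i + 1) (by omega))) h1.1 h1.2).2
    rw [← h2, pow_two]
    rfl
  obtain ⟨r1, r2, r3, r4⟩ := sroots
  have o1 : q 1 ^ 2 = 1 := by
    have h1 := hsq (fun g => g ^ 1 = 1) (hψ 1) 0 (by norm_num)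
    rw [r1, pow_one, pow_one] at h1
    rw [h1]
    exact hq0
  have o2 : q 2 ^ 4 = 1 := by
    have h1 := hsq (fun g => g ^ 2 = 1) (hψ 2) 1 (by norm_num)
    rw [r2, ← pow_mul] at h1
    rw [h1]
    exact o1
  have o3 : q 3 ^ 4 = 1 := by
    have h1 := hsq (fun g => g ^ 2 = 1) (hψ 2) 2 (by norm_num)
    rw [r3, ← pow_mul] at h1
    rw [h1]
    exact o1
  have o4 : q 4 ^ 8 = 1 := by
    have h1 := hsq (fun g => g ^ 4 = 1) (hψ 4) 3 (by norm_num)
    rw [r4, ← pow_mul] at h1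
    rw [h1]
    exact o2
  have v2 : bc 3 (adj V F) (q 2 ^ 2) = bc 3 (adj V F) (q 1) := by
    have h1 := hsq (fun g => bc 3 (adj V F) g) hφ 1 (by norm_num)
    rwa [r2] at h1
  have v3 : bc 3 (adj V F) (q 3 ^ 2) = bc 3 (adj V F) (q 1) := by
    have h1 := hsq (fun g => bc 3 (adj V F) g) hφ 2 (by norm_num)
    rwa [r3] at h1
  have v4 : bc 3 (adj V F) (q 4 ^ 2) = bc 3 (adj V F) (q 2) := by
    have h1 := hsq (fun g => bc 3 (adj V F) g) hφ 3 (by norm_num)
    rwa [r4] at h1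
  have v4' : bc 3 (adj V F) (q 4 ^ 4) = bc 3 (adj V F) (q 1) := by
    have h1 := hsq (fun g => bc 3 (adj V F) (g ^ 2)) hφ2 3 (by norm_num)
    rw [r4, ← pow_mul] at h1
    exact h1.trans v2
  obtain ⟨f1, f2⟩ := five
  have hq6 : q 6 = q 5 ^ 2 := by
    have h1 := sys.R_mul (hc 5 (by norm_num)) (hc 5 (by norm_num))
    rw [show sys.mul (Fo 5) (Fo 5) = Fo 6 from G4.beq_eq f1] at h1
    have h2 : c 5 * c 5 = c 6 := sys.R_inj h1 (hc 6 (by norm_num))
    rw [pow_two]
    show (QuotientGroup.mk (c 6) : G4.SU ⧸ Subgroup.center G4.SU) = QuotientGroup.mk (c 5 * c 5)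
    rw [h2]
  have o5 : q 5 ^ 5 = 1 := by
    have h1 := sys.R_mul (sys.R_mul (hc 6 (by norm_num)) (hc 6 (by norm_num))) (hc 5 (by norm_num))
    have h2 := sys.R_eqv h1 (hc 0 (by norm_num)) f2
    have h3 : q 6 * q 6 * q 5 = q 0 := h2
    rw [hq0, hq6] at h3
    rw [← h3]
    group
  have n1 : q 1 ≠ 1 := by
    intro h
    have h0 := chkIdx_spec indices 1 (by norm_num)
    have h1 := (Fun.val sys hFo (φ := fun g => g ^ 1 = 1) (hψ 1) (he 1 (by norm_num)) h0.1 h0.2).2
    have h2 : root (idx 1) = 1 := by decide +kernel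
    rw [h2, pow_one, pow_one] at h1
    exact hS.ne 1 (by norm_num) (by norm_num) (h1.symm ▸ h)
  -- the values
  obtain ⟨a, a2, a4, La, ea, ea2, ea4, fa, fa2, fa4⟩ := val8 V F (g := q 1) (by
    rw [show (8 : ℕ) = 2 * 4 from rfl, pow_mul, o1, one_pow])
  obtain ⟨b1, b2, b4, Lb, eb, eb2, eb4, fb, fb2, fb4⟩ := val8 V F (g := q 2) (by
    rw [show (8 : ℕ) = 4 * 2 from rfl, pow_mul, o2, one_pow])
  obtain ⟨t1, t2, t4, Lt, et, et2, et4, ft, ft2, ft4⟩ := val8 V F (g := q 3) (by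
    rw [show (8 : ℕ) = 4 * 2 from rfl, pow_mul, o3, one_pow])
  obtain ⟨u, u2, u4, Lu, eu, eu2, eu4, fu, fu2, fu4⟩ := val8 V F (g := q 4) o4
  obtain ⟨o, o2', o4', Lo, eo, -, -, fo, -, -⟩ := val8 V F (g := q 0) (by rw [hq0, one_pow])
  obtain ⟨f, hf, ef, -⟩ := val5 V F (g := q 5) o5
  have ho : o = 248 := fo.1 (by rw [hq0, map_one])
  have ef1 : bc 3 (adj V F) (q 5) = f := by
    have := ef 1 (by norm_num)
    rwa [pow_one] at this
  have ef2 : bc 3 (adj V F) (q 6) = f := by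
    rw [hq6]
    exact ef 2 (by norm_num)
  have ha2 : a2 = 248 := fa2.1 (by rw [o1, map_one])
  have o1' : q 1 ^ 4 = 1 := by
    have : q 1 ^ 4 = (q 1 ^ 2) ^ 2 := by rw [← pow_mul]
    rw [this, o1, one_pow]
  have ha4 : a4 = 248 := fa4.1 (by rw [o1', map_one])
  have hb4 : b4 = 248 := fb4.1 (by rw [o2, map_one])
  have ht4 : t4 = 248 := ft4.1 (by rw [o3, map_one])
  have hb2 : b2 = a := by
    have : (b2 : ℂ) = a := by rw [← eb2, v2, ea]
    exact_mod_cast this
  have ht2 : t2 = a := by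
    have : (t2 : ℂ) = a := by rw [← et2, v3, ea]
    exact_mod_cast this
  have hu2 : u2 = b1 := by
    have : (u2 : ℂ) = b1 := by rw [← eu2, v4, eb]
    exact_mod_cast this
  have hu4 : u4 = a := by
    have : (u4 : ℂ) = a := by rw [← eu4, v4', ea]
    exact_mod_cast this
  rw [ha2, ha4] at La
  rw [hb2, hb4] at Lb
  rw [ht2, ht4] at Lt
  rw [hu2, hu4] at Lu
  rw [ho] at eo
  have ha' : a ≠ 248 := fun h => n1 (hF (by rw [fa.2 h, map_one]))
  -- the sums
  have sS := hsum (fun g => bc 3 (adj V F) g) hφ he (chkIdx_spec indices) cntS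
  have sE := hsum (fun g => bc 3 (adj V F) g) hφ (n := 16) (fun i hi => he i (by omega))
    (fun i hi => chkIdx_spec indices i (by omega)) cntE
  have s5 := hsum (fun g => bc 3 (adj V F) g) hφ he5 (chkIdx_spec indices5) cnt5
  have sE5 := hsum (fun g => bc 3 (adj V F) g) hφ (n := 16) (fun i hi => he5 i (by omega))
    (fun i hi => chkIdx_spec indices5 i (by omega)) cntE5
  have dS := sum_table hM hV F hS (by norm_num)
  have dE := sum_table hM hV F hE (by norm_num)
  have d5 := sum_table hM hV F hS5 (by norm_num)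
  have dE5 := sum_table hM hV F hE5 (by norm_num)
  simp only [List.getD_cons_zero, List.getD_cons_succ, zero_nsmul, add_zero, one_nsmul, eo, ea, eb, et, eu, ef1, ef2]
    at sS sE s5 sE5
  -- the dimensions
  have leSE : finrank (ResidueField V) (res (V := V) F hS.grp).invariants ≤
      finrank (ResidueField V) (res (V := V) F hE.grp).invariants := by
    refine Submodule.finrank_mono ?_
    intro w hw g
    obtain ⟨i, hi, hgi⟩ := g.2
    exact hw ⟨g, i, by omega, hgi⟩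
  have le5E : finrank (ResidueField V) (res (V := V) F hS5.grp).invariants ≤
      finrank (ResidueField V) (res (V := V) F hE5.grp).invariants := by
    refine Submodule.finrank_mono ?_
    intro w hw g
    obtain ⟨i, hi, hgi⟩ := g.2
    exact hw ⟨g, i, by omega, hgi⟩
  generalize hdS : finrank (ResidueField V) (res (V := V) F hS.grp).invariants = nS at dS leSE
  generalize finrank (ResidueField V) (res (V := V) F hE.grp).invariants = nE at dE leSE
  generalize finrank (ResidueField V) (res (V := V) F hS5.grp).invariants = n5 at d5 le5E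
  generalize finrank (ResidueField V) (res (V := V) F hE5.grp).invariants = nE5 at dE5 le5E
  rw [sS] at dS
  rw [sE] at dE
  rw [s5] at d5
  rw [sE5] at dE5
  have dS' : 248 + 35 * a + 20 * b1 + 56 * t1 + 16 * u = 128 * (nS : ℤ) := by
    have h9 : ((248 + 35 * a + 20 * b1 + 56 * t1 + 16 * u : ℤ) : ℂ) = ((128 * (nS : ℤ) : ℤ) : ℂ) := by
      simp only [nsmul_eq_mul] at dS
      push_cast at dS ⊢
      linear_combination dS
    exact_mod_cast h9
  have dE' : 248 + 15 * a = 16 * (nE : ℤ) := by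
    have h9 : ((248 + 15 * a : ℤ) : ℂ) = ((16 * (nE : ℤ) : ℤ) : ℂ) := by
      simp only [nsmul_eq_mul] at dE
      push_cast at dE ⊢
      linear_combination dE
    exact_mod_cast h9
  have dE5' : 248 + 15 * a = 16 * (nE5 : ℤ) := by
    have h9 : ((248 + 15 * a : ℤ) : ℂ) = ((16 * (nE5 : ℤ) : ℤ) : ℂ) := by
      simp only [nsmul_eq_mul] at dE5
      push_cast at dE5 ⊢
      linear_combination dE5
    exact_mod_cast h9
  have d5' : 248 + 15 * a + 32 * f + 32 * f = 80 * (n5 : ℤ) := by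
    have h9 : ((248 + 15 * a + 32 * f + 32 * f : ℤ) : ℂ) = ((80 * (n5 : ℤ) : ℤ) : ℂ) := by
      simp only [nsmul_eq_mul] at d5
      push_cast at d5 ⊢
      linear_combination d5
    exact_mod_cast h9
  have hnE : (nE5 : ℤ) = nE := by omega
  obtain ⟨rfl, rfl, rfl, rfl, hnS, hf'⟩ := arith1 La Lb Lt Lu hf ha' dS' dE' d5' (by exact_mod_cast leSE)
    (by rw [← hnE]; exact_mod_cast le5E)
  have hnS' : nS = 1 := by exact_mod_cast hnS
  subst hnS'
  -- the traces
  have nd : ∀ {g : Cfsg.PSU 4 K9 3} {n : ℕ}, ¬ 3 ∣ n → g ^ n = 1 → ¬ 3 ∣ orderOf g := by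
    intro g n hn hg h
    exact hn (h.trans (orderOf_dvd_of_pow_eq_one hg))
  have th0 : theta F (q 0) = ((248 : ℤ) : ZMod 3) := theta_eq F V (nd (n := 1) (by norm_num) (by rw [hq0, one_pow])) (by
    rw [eo])
  have th1 : theta F (q 1) = ((-8 : ℤ) : ZMod 3) := theta_eq F V (nd (n := 2) (by norm_num) o1) ea
  have th2 : theta F (q 2) = ((8 : ℤ) : ZMod 3) := theta_eq F V (nd (n := 4) (by norm_num) o2) eb
  have th3 : theta F (q 3) = ((0 : ℤ) : ZMod 3) := theta_eq F V (nd (n := 4) (by norm_num) o3) et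
  have th4 : theta F (q 4) = ((0 : ℤ) : ZMod 3) := theta_eq F V (nd (n := 8) (by norm_num) o4) eu
  have th5 : theta F (q 5) = ((f : ℤ) : ZMod 3) := theta_eq F V (nd (n := 5) (by norm_num) o5) ef1
  have o6 : q 6 ^ 5 = 1 := by
    rw [hq6, ← pow_mul, mul_comm, pow_mul, o5, one_pow]
  have th6 : theta F (q 6) = ((f : ℤ) : ZMod 3) := theta_eq F V (nd (n := 5) (by norm_num) o6) ef2
  have htr : ∑ i ∈ Finset.range 128, theta F (QuotientGroup.mk (e i)) = 2 := by
    rw [hsum (theta F) hθ he (chkIdx_spec indices) cntS]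
    simp only [List.getD_cons_zero, List.getD_cons_succ, zero_nsmul, add_zero, one_nsmul, th0, th1, th2, th3, th4]
    decide
  have hEs : ∑ i ∈ Finset.range 16, theta F (QuotientGroup.mk (e i)) = 2 := by
    rw [hsum (theta F) hθ (n := 16) (fun i hi => he i (by omega)) (fun i hi => chkIdx_spec indices i (by omega)) cntE]
    simp only [List.getD_cons_zero, List.getD_cons_succ, zero_nsmul, add_zero, one_nsmul, th0, th1]
    decide
  -- the normalizer of `E`
  have hnB : ∀ r < 5, ∀ g ∈ hE.grp, (QuotientGroup.mk (b r) : Cfsg.PSU 4 K9 3)⁻¹ * g * QuotientGroup.mk (b r) ∈ hE.grp := by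
    intro r hr g hg
    refine conj_mem hE (fun j hj => ?_) hg
    have h1 := allB_spec (allB_spec normE r hr) j hj
    rw [Bool.and_eq_true, Nat.blt_eq] at h1
    exact ⟨cE r j, h1.1, sys.R_eqv (sys.R_mul (hgen j (by omega)) (hb r (by omega)))
      (sys.R_mul (hb r (by omega)) (he _ (by omega))) h1.2⟩
  have hGB : ∀ i < 3, gen (4 + i) = b i := by
    intro i hi
    have h1 := allB_spec GB i hi
    have h2 := hgen (4 + i) (by omega)
    rw [G4.beq_eq h1] at h2
    exact sys.R_inj h2 (hb i (by omega))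
  have hnS : ∀ i < 128, ∀ g ∈ hE.grp, (QuotientGroup.mk (e i) : Cfsg.PSU 4 K9 3)⁻¹ * g * QuotientGroup.mk (e i) ∈ hE.grp := by
    intro i
    induction i using Nat.strong_induction_on with
    | _ i ih =>
      intro hi g hg
      by_cases h0 : i = 0
      · subst h0
        have : (QuotientGroup.mk (e 0) : Cfsg.PSU 4 K9 3) = 1 := hS.one
        rw [this, inv_one, one_mul, mul_one]
        exact hg
      · obtain ⟨i', hi', j, hj, ht⟩ := hS.par i hi h0
        have h2 := hS.mul i' (by omega) j hj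
        rw [ht] at h2
        have h3 : (QuotientGroup.mk (e i) : Cfsg.PSU 4 K9 3)⁻¹ * g * QuotientGroup.mk (e i) =
            (QuotientGroup.mk (gen j) : Cfsg.PSU 4 K9 3)⁻¹ * ((QuotientGroup.mk (e i') : Cfsg.PSU 4 K9 3)⁻¹ * g *
              QuotientGroup.mk (e i')) * QuotientGroup.mk (gen j) := by
          rw [show (QuotientGroup.mk (e i) : Cfsg.PSU 4 K9 3) = QuotientGroup.mk (e i') * QuotientGroup.mk (gen j) from h2.symm]
          group
        rw [h3]
        have h4 := ih i' hi' (by omega) g hg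
        by_cases hj4 : j < 4
        · have h5 := Tgen_mem hE hj4
          exact mul_mem (mul_mem (inv_mem h5) h4) h5
        · obtain ⟨j', rfl⟩ : ∃ j', j = 4 + j' := ⟨j - 4, by omega⟩
          rw [hGB j' (by omega)]
          exact hnB j' (by omega) _ h4
  have hcos : ∀ k < 8, ∀ j < 16, (QuotientGroup.mk (e (16 * k + j)) : Cfsg.PSU 4 K9 3) =
      QuotientGroup.mk (e j) * QuotientGroup.mk (e (16 * k)) := by
    intro k hk j hj
    have h1 := allB_spec (allB_spec cosets k hk) j hj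
    exact (sys.R_eqv (sys.R_mul (he j (by omega)) (he (16 * k) (by omega))) (he _ (by omega)) h1).symm
  have hT3 : ∀ i < 8, ∑ j ∈ Finset.range 16,
      theta F (QuotientGroup.mk (e (16 * (kr i).1 + j)) * QuotientGroup.mk (b (kr i).2)) = 2 := by
    intro i hi
    obtain ⟨hk, hr⟩ := kr_lt i hi
    have h1 := allB_spec cubes i hi
    simp only [Bool.and_eq_true, Nat.blt_eq] at h1
    obtain ⟨⟨⟨h2, h3⟩, h4⟩, h5⟩ := h1
    have hp1 := sys.R_mul (he (16 * (kr i).1) (by omega)) (hb (kr i).2 (by omega))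
    rw [show sys.mul (S (16 * (kr i).1)) (B (kr i).2) = P1 i from G4.beq_eq h2] at hp1
    have hp2 := sys.R_mul hp1 hp1
    rw [show sys.mul (P1 i) (P1 i) = P2 i from G4.beq_eq h3] at hp2
    have hp3 := sys.R_eqv (sys.R_mul hp2 hp1) (he _ (by omega)) h5
    have h6 := coset3 F hE (p := QuotientGroup.mk (e (16 * (kr i).1) * b (kr i).2)) (by
      intro g hg
      have h7 : ((QuotientGroup.mk (e (16 * (kr i).1) * b (kr i).2)) : Cfsg.PSU 4 K9 3)⁻¹ * g *
          QuotientGroup.mk (e (16 * (kr i).1) * b (kr i).2) =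
          (QuotientGroup.mk (b (kr i).2) : Cfsg.PSU 4 K9 3)⁻¹ * ((QuotientGroup.mk (e (16 * (kr i).1)) : Cfsg.PSU 4 K9 3)⁻¹ *
            g * QuotientGroup.mk (e (16 * (kr i).1))) * QuotientGroup.mk (b (kr i).2) := by
        rw [QuotientGroup.mk_mul]
        group
      rw [h7]
      exact hnB _ hr _ (hnS _ (by omega) g hg)) ⟨c3 i, h4, hp3⟩
    rw [← hEs, ← h6]
    refine Finset.sum_congr rfl fun j hj => ?_
    rw [hcos _ hk j (Finset.mem_range.1 hj), QuotientGroup.mk_mul, mul_assoc]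
  have hTx : ∀ k ∈ [4, 5, 6, 7], ∀ j < 16, qx (16 * k + j) < 711 ∧
      sys.eqv (sys.mul (S (16 * k + j)) (B 3)) (Fo (qx (16 * k + j))) = true := by
    intro k hk j hj
    have h1 := prodx
    rw [chkProd, List.all_eq_true] at h1
    have h2 := allB_spec (h1 k hk) j hj
    rwa [Bool.and_eq_true, Nat.blt_eq] at h2
  have hTy : ∀ k ∈ [2, 3, 6, 7], ∀ j < 16, qy (16 * k + j) < 711 ∧
      sys.eqv (sys.mul (S (16 * k + j)) (B 4)) (Fo (qy (16 * k + j))) = true := by
    intro k hk j hj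
    have h1 := prody
    rw [chkProd, List.all_eq_true] at h1
    have h2 := allB_spec (h1 k hk) j hj
    rwa [Bool.and_eq_true, Nat.blt_eq] at h2
  have hTxy : ∀ k ∈ [0, 1, 2, 3, 4, 5, 6, 7], ∀ j < 16, qxy (16 * k + j) < 711 ∧
      sys.eqv (sys.mul (S (16 * k + j)) (XY 0)) (Fo (qxy (16 * k + j))) = true := by
    intro k hk j hj
    have h1 := prodxy
    rw [chkProd, List.all_eq_true] at h1
    have h2 := allB_spec (h1 k hk) j hj
    rwa [Bool.and_eq_true, Nat.blt_eq] at h2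
  have hxy := sys.R_mul (hb 3 (by norm_num)) (hb 4 (by norm_num))
  rw [show sys.mul (B 3) (B 4) = XY 0 from G4.beq_eq prodXY] at hxy
  have hX : ∀ k ∈ [4, 5, 6, 7], ∀ l : List ℕ, cnts 16 (fun j => qx (16 * k + j)) = l →
      ∑ j ∈ Finset.range 16, theta F (QuotientGroup.mk (e (16 * k + j)) * QuotientGroup.mk (b 3)) =
        l.getD 0 0 • theta F (q 0) + l.getD 1 0 • theta F (q 1) + l.getD 2 0 • theta F (q 2) + l.getD 3 0 • theta F (q 3) +
        l.getD 4 0 • theta F (q 4) + l.getD 5 0 • theta F (q 5) + l.getD 6 0 • theta F (q 6) := by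
    intro k hk l hl
    have hk8 : k < 8 := by
      simp only [List.mem_cons, List.not_mem_nil, or_false] at hk
      omega
    exact hsum (theta F) hθ (g := fun j => e (16 * k + j) * b 3) (a := fun j => sys.mul (S (16 * k + j)) (B 3))
      (fun j hj => sys.R_mul (he _ (by omega)) (hb 3 (by norm_num))) (hTx k hk) hl
  have hY : ∀ k ∈ [2, 3, 6, 7], ∀ l : List ℕ, cnts 16 (fun j => qy (16 * k + j)) = l →
      ∑ j ∈ Finset.range 16, theta F (QuotientGroup.mk (e (16 * k + j)) * QuotientGroup.mk (b 4)) =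
        l.getD 0 0 • theta F (q 0) + l.getD 1 0 • theta F (q 1) + l.getD 2 0 • theta F (q 2) + l.getD 3 0 • theta F (q 3) +
        l.getD 4 0 • theta F (q 4) + l.getD 5 0 • theta F (q 5) + l.getD 6 0 • theta F (q 6) := by
    intro k hk l hl
    have hk8 : k < 8 := by
      simp only [List.mem_cons, List.not_mem_nil, or_false] at hk
      omega
    exact hsum (theta F) hθ (g := fun j => e (16 * k + j) * b 4) (a := fun j => sys.mul (S (16 * k + j)) (B 4))
      (fun j hj => sys.R_mul (he _ (by omega)) (hb 4 (by norm_num))) (hTy k hk) hl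
  have hXY : ∀ k ∈ [0, 1, 2, 3, 4, 5, 6, 7], ∀ l : List ℕ, cnts 16 (fun j => qxy (16 * k + j)) = l →
      ∑ j ∈ Finset.range 16, theta F (QuotientGroup.mk (e (16 * k + j)) * (QuotientGroup.mk (b 3) * QuotientGroup.mk (b 4))) =
        l.getD 0 0 • theta F (q 0) + l.getD 1 0 • theta F (q 1) + l.getD 2 0 • theta F (q 2) + l.getD 3 0 • theta F (q 3) +
        l.getD 4 0 • theta F (q 4) + l.getD 5 0 • theta F (q 5) + l.getD 6 0 • theta F (q 6) := by
    intro k hk l hl
    have hk8 : k < 8 := by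
      simp only [List.mem_cons, List.not_mem_nil, or_false] at hk
      omega
    exact hsum (theta F) hθ (g := fun j => e (16 * k + j) * (b 3 * b 4)) (a := fun j => sys.mul (S (16 * k + j)) (XY 0))
      (fun j hj => sys.R_mul (he _ (by omega)) hxy) (hTxy k hk) hl
  have hT3' : ∀ i < 8, ∀ k r : ℕ, kr i = (k, r) → ∑ j ∈ Finset.range 16,
      theta F (QuotientGroup.mk (e (16 * k + j)) * QuotientGroup.mk (b r)) = 2 := by
    intro i hi k r h
    have h1 := hT3 i hi
    rw [h] at h1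
    exact h1
  -- the three sums
  have lx : ∑ i ∈ Finset.range 128, theta F (QuotientGroup.mk (e i) * QuotientGroup.mk (b 3)) = 2 := by
    rw [show (128 : ℕ) = 16 * 8 from rfl, sum_blocks]
    simp only [Finset.sum_range_succ _ 7, Finset.sum_range_succ _ 6, Finset.sum_range_succ _ 5, Finset.sum_range_succ _ 4,
      Finset.sum_range_succ _ 3, Finset.sum_range_succ _ 2, Finset.sum_range_succ _ 1, Finset.sum_range_one]
    rw [hT3' 0 (by norm_num) 0 3 rfl, hT3' 1 (by norm_num) 1 3 rfl, hT3' 2 (by norm_num) 2 3 rfl,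
      hT3' 3 (by norm_num) 3 3 rfl,
      hX 4 (by simp) _ cnt_x_4, hX 5 (by simp) _ cnt_x_5, hX 6 (by simp) _ cnt_x_6, hX 7 (by simp) _ cnt_x_7]
    simp only [List.getD_cons_zero, List.getD_cons_succ, zero_nsmul, add_zero, th1, th2, th3, th4]
    decide
  have ly : ∑ i ∈ Finset.range 128, theta F (QuotientGroup.mk (e i) * QuotientGroup.mk (b 4)) = 2 := by
    rw [show (128 : ℕ) = 16 * 8 from rfl, sum_blocks]
    simp only [Finset.sum_range_succ _ 7, Finset.sum_range_succ _ 6, Finset.sum_range_succ _ 5, Finset.sum_range_succ _ 4,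
      Finset.sum_range_succ _ 3, Finset.sum_range_succ _ 2, Finset.sum_range_succ _ 1, Finset.sum_range_one]
    rw [hT3' 4 (by norm_num) 0 4 rfl, hT3' 5 (by norm_num) 1 4 rfl, hT3' 6 (by norm_num) 4 4 rfl,
      hT3' 7 (by norm_num) 5 4 rfl,
      hY 2 (by simp) _ cnt_y_2, hY 3 (by simp) _ cnt_y_3, hY 6 (by simp) _ cnt_y_6, hY 7 (by simp) _ cnt_y_7]
    simp only [List.getD_cons_zero, List.getD_cons_succ, zero_nsmul, add_zero, th1, th2, th3, th4]
    decide
  have lxy : ∑ i ∈ Finset.range 128, theta F (QuotientGroup.mk (e i) * (QuotientGroup.mk (b 3) * QuotientGroup.mk (b 4))) =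
      (f : ZMod 3) := by
    rw [show (128 : ℕ) = 16 * 8 from rfl, sum_blocks]
    simp only [Finset.sum_range_succ _ 7, Finset.sum_range_succ _ 6, Finset.sum_range_succ _ 5, Finset.sum_range_succ _ 4,
      Finset.sum_range_succ _ 3, Finset.sum_range_succ _ 2, Finset.sum_range_succ _ 1, Finset.sum_range_one]
    rw [hXY 0 (by simp) _ cnt_xy_0, hXY 1 (by simp) _ cnt_xy_1, hXY 2 (by simp) _ cnt_xy_2, hXY 3 (by simp) _ cnt_xy_3,
      hXY 4 (by simp) _ cnt_xy_4, hXY 5 (by simp) _ cnt_xy_5, hXY 6 (by simp) _ cnt_xy_6, hXY 7 (by simp) _ cnt_xy_7]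
    simp only [List.getD_cons_zero, List.getD_cons_succ, zero_nsmul, add_zero, zero_add, th3, th4, th5, th6]
    generalize ((f : ℤ) : ZMod 3) = z
    revert z
    decide
  have h64' : ∀ i < 64, (QuotientGroup.mk (e (64 + i)) : Cfsg.PSU 4 K9 3) = QuotientGroup.mk (e i) * QuotientGroup.mk (gen 6) := by
    intro i hi
    have h1 := allB_spec h64 i hi
    have h2 := hS.mul i (by omega) 6 (by norm_num)
    rw [Nat.eq_of_beq_eq_true h1] at h2
    exact h2.symm
  have hcore := core F V hS hO h64' (x := QuotientGroup.mk (b 3)) (y := QuotientGroup.mk (b 4))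
    (fun g hg => conj_mem hO (fun j hj => by
      have h1 := allB_spec normO j hj
      rw [Bool.and_eq_true, Nat.blt_eq] at h1
      exact ⟨cO j, h1.1, sys.R_eqv (sys.R_mul (hgen j (by omega)) (hb 3 (by norm_num)))
        (sys.R_mul (hb 3 (by norm_num)) (he _ (by omega))) h1.2⟩) hg)
    (by
      have h1 : (QuotientGroup.mk (gen 6 * b 4) : Cfsg.PSU 4 K9 3) = QuotientGroup.mk (b 4 * e 27) :=
        sys.R_eqv (sys.R_mul (hgen 6 (by norm_num)) (hb 4 (by norm_num)))
          (sys.R_mul (hb 4 (by norm_num)) (he 27 (by norm_num))) conjy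
      refine ⟨27, by norm_num, ?_⟩
      show (QuotientGroup.mk (b 4) : Cfsg.PSU 4 K9 3)⁻¹ * QuotientGroup.mk (gen 6) * QuotientGroup.mk (b 4) =
        QuotientGroup.mk (e 27)
      rw [mul_assoc, ← QuotientGroup.mk_mul, h1, QuotientGroup.mk_mul, inv_mul_cancel_left])
    hdS htr
  rw [lx, ly, lxy] at hcore
  rcases hf' with rfl | rfl
  · exact absurd hcore (by decide)
  · exact absurd hcore (by decide)

/-- `E₈(3)` has no subgroup `PSU₄(3)`. -/
theorem psu4 {F₉ : Type*} [Field F₉] [Fintype F₉] (h9 : Fintype.card F₉ = 9)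
    (H : Subgroup ↥(Cfsg.Lie.chevE8.group (ZMod 3))) : IsEmpty (↥H ≃* Cfsg.PSU 4 F₉ 3) :=
  ⟨fun e => (u4 H).false (e.trans (Cfsg.Agent.LieClassical.FieldTransfer.psuCongr 4 3
    (FiniteField.ringEquivOfCardEq (h9.trans K9.card_K9.symm))))⟩

end Cfsg.Agent.H942.U4
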